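import Cfsg.Agent.LieRecognition.BNCox
import Cfsg.Agent.H454.PiBS.Const

/-!
# Symmetries of odd order of the Coxeter diagrams of finite irreducible (B,N)-pairs (helper561)

`odd_trivial` : a diagram of rank at least three other than `D₄` has no non-trivial symmetry of odd order;
`d4_stable` : a subset of the nodes of `D₄` stable under a symmetry of order three is stable under all symmetries.
-/

set_option autoImplicit false

namespace Cfsg.Agent.H561.RV.DiagSym

open Cfsg.Agent.LieRecognition.CoxClass Cfsg.Agent.H454.PiBS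

/-- a permutation of `{0,…,n-1}` preserving `m`, without orbits of length two -/
structure Sym (n : ℕ) (m : ℕ → ℕ → ℕ) (f : ℕ → ℕ) : Prop where
  lt : ∀ i, i < n → f i < n
  inj : ∀ i j, i < n → j < n → f i = f j → i = j
  pres : ∀ i j, i < n → j < n → m (f i) (f j) = m i j
  odd : ∀ i, i < n → f (f i) = i → f i = i

/-- adjacency of a path -/
theorem path {n : ℕ} {m : ℕ → ℕ → ℕ} {f : ℕ → ℕ} (hn : 2 ≤ n)
    (hm : ∀ i j, i < n → j < n → (3 ≤ m i j ↔ (i + 1 = j ∨ j + 1 = i))) (S : Sym n m f) :
    ∀ i, i < n → f i = i := by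
  have hadj : ∀ i j, i < n → j < n → ((f i + 1 = f j ∨ f j + 1 = f i) ↔ (i + 1 = j ∨ j + 1 = i)) := by
    intro i j hi hj
    rw [← hm i j hi hj, ← hm (f i) (f j) (S.lt i hi) (S.lt j hj), S.pres i j hi hj]
  -- surjectivity
  have hsurj : ∀ k, k < n → ∃ i, i < n ∧ f i = k := by
    intro k hk
    have h1 : Function.Injective (fun i : Fin n => (⟨f i, S.lt i i.2⟩ : Fin n)) := fun i j h =>
      Fin.ext (S.inj i j i.2 j.2 (congrArg Fin.val h))
    obtain ⟨i, hi⟩ := (Finite.injective_iff_surjective.1 h1) ⟨k, hk⟩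
    exact ⟨i, i.2, congrArg Fin.val hi⟩
  have hend : ∀ e, e < n → (e = 0 ∨ e + 1 = n) → f e = 0 ∨ f e + 1 = n := by
    intro e he hee
    by_contra hcon
    push Not at hcon
    have h0 := S.lt e he
    obtain ⟨a, ha, ha'⟩ := hsurj (f e - 1) (by omega)
    obtain ⟨b, hb, hb'⟩ := hsurj (f e + 1) (by omega)
    have h1 := (hadj e a he ha).1 (by omega)
    have h2 := (hadj e b he hb).1 (by omega)
    have h3 : a ≠ b := by
      rintro rfl
      omega
    omega
  have h00 : f 0 = 0 := by
    rcases hend 0 (by omega) (Or.inl rfl) with h | h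
    · exact h
    · have h1 : f (f 0) = 0 := by
        rcases hend (f 0) (S.lt 0 (by omega)) (Or.inr h) with h2 | h2
        · exact h2
        · exfalso
          have h3 : f (f 0) = f 0 := by omega
          have h4 := S.inj (f 0) 0 (S.lt 0 (by omega)) (by omega) h3
          omega
      exact S.odd 0 (by omega) h1
  intro i
  induction i using Nat.strong_induction_on with
  | _ i ih =>
    intro hi
    rcases Nat.eq_zero_or_pos i with rfl | hpos
    · exact h00
    · have h1 := ih (i - 1) (by omega) (by omega)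
      have h2 := (hadj (i - 1) i (by omega) hi).2 (by omega)
      rcases Nat.eq_zero_or_pos (i - 1) with h3 | h3
      · omega
      · have h4 := ih (i - 2) (by omega) (by omega)
        have h5 : f i ≠ f (i - 2) := fun h => by
          have := S.inj i (i - 2) hi (by omega) h
          omega
        omega

/-- the diagram `D_n`, `n ≥ 5` -/
theorem typeD {n : ℕ} {f : ℕ → ℕ} (hn : 5 ≤ n) (S : Sym n (mD n) f) : ∀ i, i < n → f i = i := by
  have hm : ∀ i j, i < n → j < n → (3 ≤ mD n i j ↔ ((i + 1 = j ∧ j + 1 < n) ∨ (j + 1 = i ∧ i + 1 < n) ∨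
      (i + 3 = n ∧ j + 1 = n) ∨ (j + 3 = n ∧ i + 1 = n))) := by
    intro i j hi hj
    unfold mD
    split_ifs with h1 h2 <;> omega
  have hadj : ∀ i j, i < n → j < n → 3 ≤ mD n i j → 3 ≤ mD n (f i) (f j) := by
    intro i j hi hj h
    rw [S.pres i j hi hj]; exact h
  have ad : ∀ i j, i < n → j < n → ((i + 1 = j ∧ j + 1 < n) ∨ (j + 1 = i ∧ i + 1 < n) ∨
      (i + 3 = n ∧ j + 1 = n) ∨ (j + 3 = n ∧ i + 1 = n)) → ((f i + 1 = f j ∧ f j + 1 < n) ∨
      (f j + 1 = f i ∧ f i + 1 < n) ∨ (f i + 3 = n ∧ f j + 1 = n) ∨ (f j + 3 = n ∧ f i + 1 = n)) := by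
    intro i j hi hj h
    exact (hm _ _ (S.lt i hi) (S.lt j hj)).1 (hadj i j hi hj ((hm i j hi hj).2 h))
  obtain ⟨k, rfl⟩ : ∃ k, n = k + 5 := ⟨n - 5, by omega⟩
  -- nodes: `b = k + 2`, neighbours `k + 1`, `k + 3`, `k + 4`
  have l0 := S.lt k (by omega)
  have l1 := S.lt (k + 1) (by omega)
  have l2 := S.lt (k + 2) (by omega)
  have l3 := S.lt (k + 3) (by omega)
  have l4 := S.lt (k + 4) (by omega)
  have a01 := ad k (k + 1) (by omega) (by omega) (by omega)
  have a12 := ad (k + 1) (k + 2) (by omega) (by omega) (by omega)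
  have a23 := ad (k + 2) (k + 3) (by omega) (by omega) (by omega)
  have a24 := ad (k + 2) (k + 4) (by omega) (by omega) (by omega)
  have n01 : f k ≠ f (k + 2) := fun h => by have := S.inj _ _ (by omega) (by omega) h; omega
  have n13 : f (k + 1) ≠ f (k + 3) := fun h => by have := S.inj _ _ (by omega) (by omega) h; omega
  have n14 : f (k + 1) ≠ f (k + 4) := fun h => by have := S.inj _ _ (by omega) (by omega) h; omega
  have n34 : f (k + 3) ≠ f (k + 4) := fun h => by have := S.inj _ _ (by omega) (by omega) h; omega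
  have hb : f (k + 2) = k + 2 := by omega
  have h1 : f (k + 1) = k + 1 := by omega
  have h3 : f (k + 3) = k + 3 := by
    by_contra hne
    have h5 : f (k + 3) = k + 4 := by omega
    have h6 : f (k + 4) = k + 3 := by omega
    exact hne (S.odd (k + 3) (by omega) (by rw [h5, h6]))
  have h4 : f (k + 4) = k + 4 := by omega
  -- down the path
  have down : ∀ d, d ≤ k + 1 → f (k + 1 - d) = k + 1 - d := by
    intro d
    induction d using Nat.strong_induction_on with
    | _ d ih =>
      intro hd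
      rcases Nat.eq_zero_or_pos d with rfl | hpos
      · exact h1
      · have i1 := ih (d - 1) (by omega) (by omega)
        have e1 : k + 1 - (d - 1) = (k + 1 - d) + 1 := by omega
        rw [e1] at i1
        have a := ad (k + 1 - d) (k + 1 - d + 1) (by omega) (by omega) (by omega)
        rw [i1] at a
        have lt := S.lt (k + 1 - d) (by omega)
        have i2 : f (k + 1 - d + 2) = k + 1 - d + 2 := by
          rcases Nat.lt_or_ge 1 d with h | h
          · have i3 := ih (d - 2) (by omega) (by omega)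
            have e2 : k + 1 - (d - 2) = (k + 1 - d) + 2 := by omega
            rwa [e2] at i3
          · have : k + 1 - d + 2 = k + 2 := by omega
            rw [this]; exact hb
        have ne : f (k + 1 - d) ≠ f (k + 1 - d + 2) := fun h => by
          have := S.inj _ _ (by omega) (by omega) h; omega
        omega
  intro i hi
  rcases Nat.lt_or_ge (k + 1) i with h | h
  · have : i = k + 2 ∨ i = k + 3 ∨ i = k + 4 := by omega
    rcases this with rfl | rfl | rfl
    · exact hb
    · exact h3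
    · exact h4
  · have := down (k + 1 - i) (by omega)
    have e : k + 1 - (k + 1 - i) = i := by omega
    rwa [e] at this

/-- the diagrams `E_n`, `n ≥ 6` -/
theorem typeE {n : ℕ} {f : ℕ → ℕ} (hn : 6 ≤ n) (S : Sym n (mE n) f) : ∀ i, i < n → f i = i := by
  have hm : ∀ i j, i < n → j < n → (3 ≤ mE n i j ↔ ((i + 1 = j ∧ j + 1 < n) ∨ (j + 1 = i ∧ i + 1 < n) ∨
      (i = 2 ∧ j + 1 = n) ∨ (j = 2 ∧ i + 1 = n))) := by
    intro i j hi hj
    unfold mE
    split_ifs with h1 h2 <;> omega
  have ad : ∀ i j, i < n → j < n → ((i + 1 = j ∧ j + 1 < n) ∨ (j + 1 = i ∧ i + 1 < n) ∨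
      (i = 2 ∧ j + 1 = n) ∨ (j = 2 ∧ i + 1 = n)) → ((f i + 1 = f j ∧ f j + 1 < n) ∨
      (f j + 1 = f i ∧ f i + 1 < n) ∨ (f i = 2 ∧ f j + 1 = n) ∨ (f j = 2 ∧ f i + 1 = n)) := by
    intro i j hi hj h
    refine (hm _ _ (S.lt i hi) (S.lt j hj)).1 ?_
    rw [S.pres i j hi hj]
    exact (hm i j hi hj).2 h
  have l0 := S.lt 0 (by omega)
  have l1 := S.lt 1 (by omega)
  have l2 := S.lt 2 (by omega)
  have l3 := S.lt 3 (by omega)
  have l4 := S.lt 4 (by omega)
  have ln := S.lt (n - 1) (by omega)
  have a01 := ad 0 1 (by omega) (by omega) (by omega)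
  have a12 := ad 1 2 (by omega) (by omega) (by omega)
  have a23 := ad 2 3 (by omega) (by omega) (by omega)
  have a34 := ad 3 4 (by omega) (by omega) (by omega)
  have a2n := ad 2 (n - 1) (by omega) (by omega) (by omega)
  have n02 : f 0 ≠ f 2 := fun h => by have := S.inj _ _ (by omega) (by omega) h; omega
  have n13 : f 1 ≠ f 3 := fun h => by have := S.inj _ _ (by omega) (by omega) h; omega
  have n1n : f 1 ≠ f (n - 1) := fun h => by have := S.inj _ _ (by omega) (by omega) h; omega
  have n3n : f 3 ≠ f (n - 1) := fun h => by have := S.inj _ _ (by omega) (by omega) h; omega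
  have n24 : f 2 ≠ f 4 := fun h => by have := S.inj _ _ (by omega) (by omega) h; omega
  have hb : f 2 = 2 := by omega
  have hnn : f (n - 1) = n - 1 := by omega
  have h1 : f 1 = 1 := by
    by_contra hne
    have h5 : f 1 = 3 := by omega
    have h6 : f 3 = 1 := by omega
    exact hne (S.odd 1 (by omega) (by rw [h5, h6]))
  have h3 : f 3 = 3 := by omega
  have h0 : f 0 = 0 := by omega
  have up : ∀ i, i + 1 < n → f i = i := by
    intro i
    induction i using Nat.strong_induction_on with
    | _ i ih =>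
      intro hi
      rcases Nat.lt_or_ge 3 i with h | h
      · have i1 := ih (i - 1) (by omega) (by omega)
        have i2 := ih (i - 2) (by omega) (by omega)
        have a := ad (i - 1) i (by omega) (by omega) (by omega)
        have lt := S.lt i (by omega)
        have ne : f i ≠ f (i - 2) := fun h => by
          have := S.inj _ _ (by omega) (by omega) h; omega
        have ne2 : f i ≠ f (n - 1) := fun h => by
          have := S.inj _ _ (by omega) (by omega) h; omega
        omega
      · have : i = 0 ∨ i = 1 ∨ i = 2 ∨ i = 3 := by omega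
        rcases this with rfl | rfl | rfl | rfl
        · exact h0
        · exact h1
        · exact hb
        · exact h3
  intro i hi
  rcases Nat.lt_or_ge (i + 1) n with h | h
  · exact up i h
  · have : i = n - 1 := by omega
    rw [this]; exact hnn

/-! ### Permutations of the nodes -/

section perm

variable {I : Type*} {M : CoxeterMatrix I}

theorem odd_orbit {σ : Equiv.Perm I} (hodd : Odd (orderOf σ)) {i : I} (h : σ (σ i) = i) : σ i = i := by
  obtain ⟨k, hk⟩ := hodd
  have h1 : ∀ k : ℕ, (σ ^ (2 * k)) i = i := by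
    intro k
    induction k with
    | zero => rfl
    | succ k ih =>
      have e : 2 * (k + 1) = 2 * k + 1 + 1 := by ring
      rw [e, pow_succ, pow_succ, Equiv.Perm.mul_apply, Equiv.Perm.mul_apply, h, ih]
  have h2 := pow_orderOf_eq_one σ
  rw [hk, pow_succ'] at h2
  have h3 := congrArg (fun τ : Equiv.Perm I => τ i) h2
  simp only [Equiv.Perm.mul_apply, h1, Equiv.Perm.one_apply] at h3
  exact h3

theorem eq_one_of_sym {n : ℕ} {m : ℕ → ℕ → ℕ} (v : Fin n ≃ I) (hv : Lab M v m) {σ : Equiv.Perm I}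
    (hσ : σ ∈ autM M) (hodd : Odd (orderOf σ)) (hS : ∀ f, Sym n m f → ∀ i, i < n → f i = i) : σ = 1 := by
  let f : ℕ → ℕ := fun i => if h : i < n then (v.symm (σ (v ⟨i, h⟩)) : ℕ) else i
  have hf : ∀ i : Fin n, f i = (v.symm (σ (v i)) : ℕ) := fun i => by simp [f]
  have hSym : Sym n m f := by
    refine ⟨fun i hi => ?_, fun i j hi hj h => ?_, fun i j hi hj => ?_, fun i hi h => ?_⟩
    · rw [hf ⟨i, hi⟩]; exact (v.symm _).2
    · rw [hf ⟨i, hi⟩, hf ⟨j, hj⟩] at h
      have h1 := v.injective (σ.injective (v.symm.injective (Fin.ext h)))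
      exact congrArg Fin.val h1
    · rw [hf ⟨i, hi⟩, hf ⟨j, hj⟩, ← hv, ← hv ⟨i, hi⟩ ⟨j, hj⟩, v.apply_symm_apply, v.apply_symm_apply]
      exact hσ _ _
    · have h1 : f (f i) = (v.symm (σ (v (v.symm (σ (v ⟨i, hi⟩))))) : ℕ) := by
        rw [hf ⟨i, hi⟩, hf]
      rw [h1, v.apply_symm_apply] at h
      have h2 : σ (σ (v ⟨i, hi⟩)) = v ⟨i, hi⟩ := by
        rw [← v.symm_apply_eq]
        exact Fin.ext h
      have h3 := odd_orbit hodd h2
      rw [hf ⟨i, hi⟩, h3, v.symm_apply_apply]
  ext i
  have h1 := hS f hSym (v.symm i) (v.symm i).2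
  rw [hf, v.apply_symm_apply] at h1
  exact v.symm.injective (Fin.ext h1)

/-- type `D₄` -/
def IsD4 (M : CoxeterMatrix I) : Prop := ∃ v : Fin 4 ≃ I, Lab M v (mD 4)

/-- **odd symmetries of the diagram are trivial except for `D₄`** -/
theorem odd_trivial (h : Outcome M) (hD : ¬ IsD4 M) {σ : Equiv.Perm I} (hσ : σ ∈ autM M) (hodd : Odd (orderOf σ)) :
    σ = 1 := by
  rcases h with ⟨n, v, hn, hv⟩ | ⟨n, v, hn, hv⟩ | ⟨n, v, hn, hv⟩ | ⟨v, hv⟩ | ⟨v, hv⟩ | ⟨v, hv⟩ | ⟨v, hv⟩
  · refine eq_one_of_sym v hv hσ hodd fun f hf => path (by omega) (fun i j hi hj => ?_) hf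
    unfold mA; split_ifs <;> omega
  · refine eq_one_of_sym v hv hσ hodd fun f hf => path (by omega) (fun i j hi hj => ?_) hf
    unfold mC; split_ifs <;> omega
  · have h5 : 5 ≤ n := by
      by_contra h5
      obtain rfl : n = 4 := by omega
      exact hD ⟨v, hv⟩
    exact eq_one_of_sym v hv hσ hodd fun f hf => typeD h5 hf
  · exact eq_one_of_sym v hv hσ hodd fun f hf => typeE (by norm_num) hf
  · exact eq_one_of_sym v hv hσ hodd fun f hf => typeE (by norm_num) hf
  · exact eq_one_of_sym v hv hσ hodd fun f hf => typeE (by norm_num) hf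
  · refine eq_one_of_sym v hv hσ hodd fun f hf => path (by omega) (fun i j hi hj => ?_) hf
    unfold mF; split_ifs <;> omega

/-- rank at most two -/
theorem odd_trivial_two [Finite I] (h : Nat.card I ≤ 2) {σ : Equiv.Perm I} (hodd : Odd (orderOf σ)) : σ = 1 := by
  classical
  have := Fintype.ofFinite I
  ext i
  apply odd_orbit hodd
  by_contra hne
  have h1 : σ i ≠ i := fun h => hne (by rw [h, h])
  have h2 : σ (σ i) ≠ σ i := fun h => h1 (σ.injective h)
  have h3 : ({i, σ i, σ (σ i)} : Finset I).card = 3 := by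
    rw [Finset.card_insert_of_notMem, Finset.card_pair h2.symm]
    simp only [Finset.mem_insert, Finset.mem_singleton, not_or]
    exact ⟨h1.symm, fun h => hne h.symm⟩
  have h4 := Finset.card_le_univ ({i, σ i, σ (σ i)} : Finset I)
  rw [h3, ← Nat.card_eq_fintype_card] at h4
  omega

theorem d4_aux : ∀ c : Equiv.Perm (Fin 4), (∀ i j : Fin 4, mD 4 (c i) (c j) = mD 4 i j) → c ^ 6 = 1 := by
  decide +kernel

set_option synthInstance.maxHeartbeats 400000 in
set_option synthInstance.maxSize 1024 in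
theorem d4_aux2 : ∀ c σ : Equiv.Perm (Fin 4), (∀ i j : Fin 4, mD 4 (c i) (c j) = mD 4 i j) →
    (∀ i j : Fin 4, mD 4 (σ i) (σ j) = mD 4 i j) → c ^ 3 = 1 → c ≠ 1 → ∀ i : Fin 4,
    σ i = i ∨ σ i = c i ∨ σ i = c (c i) := by
  decide +kernel

/-- a subset of the nodes of `D₄` stable under a non-trivial odd symmetry is stable under all symmetries -/
theorem d4_stable (v : Fin 4 ≃ I) (hv : Lab M v (mD 4)) {c σ : Equiv.Perm I} (hc : c ∈ autM M) (hc1 : c ≠ 1)
    (hodd : Odd (orderOf c)) (hσ : σ ∈ autM M) {J : Set I} (hJ : c '' J = J) : σ '' J = J := by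
  have tr : ∀ {τ : Equiv.Perm I}, τ ∈ autM M → ∀ i j : Fin 4,
      mD 4 ((v.trans τ).trans v.symm i) ((v.trans τ).trans v.symm j) = mD 4 i j := by
    intro τ hτ i j
    rw [← hv, ← hv i j]
    simp only [Equiv.trans_apply, Equiv.apply_symm_apply]
    exact hτ _ _
  set c' : Equiv.Perm (Fin 4) := (v.trans c).trans v.symm with hc'
  have hpow : ∀ k : ℕ, ∀ i, v ((c' ^ k) i) = (c ^ k) (v i) := by
    intro k
    induction k with
    | zero => intro i; rfl
    | succ k ih =>
      intro i
      rw [pow_succ, Equiv.Perm.mul_apply, ih, pow_succ, Equiv.Perm.mul_apply]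
      congr 1
      exact v.apply_symm_apply _
  have h6 : c ^ 6 = 1 := by
    have h := d4_aux c' (tr hc)
    ext i
    have h1 := hpow 6 (v.symm i)
    rw [h, v.apply_symm_apply] at h1
    rw [← h1]
    simp
  have h3 : c ^ 3 = 1 := by
    have h7 : orderOf c ∣ 3 := by
      have h8 : orderOf c ∣ 2 * 3 := orderOf_dvd_of_pow_eq_one h6
      exact (Nat.Coprime.dvd_of_dvd_mul_left (Nat.coprime_two_right.2 hodd) h8)
    exact orderOf_dvd_iff_pow_eq_one.1 h7
  have h3' : c' ^ 3 = 1 := by
    ext i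
    have h1 := hpow 3 i
    rw [h3] at h1
    exact congrArg Fin.val (v.injective h1)
  have hc1' : c' ≠ 1 := by
    intro h
    apply hc1
    ext i
    have h1 := hpow 1 (v.symm i)
    rw [h, pow_one, pow_one, v.apply_symm_apply] at h1
    rw [← h1]
    simp
  have key : ∀ {τ : Equiv.Perm I}, τ ∈ autM M → ∀ i ∈ J, τ i ∈ J := by
    intro τ hτ i hi
    have hcJ : ∀ j ∈ J, c j ∈ J := fun j hj => by rw [← hJ]; exact ⟨j, hj, rfl⟩
    have h := d4_aux2 c' ((v.trans τ).trans v.symm) (tr hc) (tr hτ) h3' hc1' (v.symm i)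
    have e1 : v (c' (v.symm i)) = c i := by
      have := hpow 1 (v.symm i)
      rwa [pow_one, pow_one, v.apply_symm_apply] at this
    have e2 : v (c' (c' (v.symm i))) = c (c i) := by
      have := hpow 2 (v.symm i)
      rw [v.apply_symm_apply, pow_two, pow_two] at this
      exact this
    have e3 : v (((v.trans τ).trans v.symm) (v.symm i)) = τ i := by
      simp
    rcases h with h | h | h
    · rw [← e3, h, v.apply_symm_apply]; exact hi
    · rw [← e3, h, e1]; exact hcJ _ hi
    · rw [← e3, h, e2]; exact hcJ _ (hcJ _ hi)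
  ext i
  constructor
  · rintro ⟨j, hj, rfl⟩
    exact key hσ j hj
  · intro hi
    exact ⟨σ⁻¹ i, key (inv_mem hσ) i hi, by simp⟩

end perm

end Cfsg.Agent.H561.RV.DiagSym
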