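import Cfsg.Agent.H454.PiBS.Core
import Cfsg.Agent.H561.RV.Defs

/-!
# TEAM RV, own characteristic `p ∈ π` (helper561)

`G` acts on the building `Δ` with the system `S : Sys Δ G p`, `p ∈ π`, and the quotients `G_x / U x` are abelian.
A Hall `π`-subgroup containing `U x` is determined by its type (`eq_of_Ty_eq`), so an automorphism fixing the type of `H`
fixes the class of `H` (`fixC_of_type`).
-/

set_option autoImplicit false
set_option linter.unusedSectionVars false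

open scoped Pointwise

namespace Cfsg.Agent.H561.RV.Own

open Cfsg Subgroup Cfsg.Agent.Tits.Core Cfsg.Agent.Tits.Core.Bldg Cfsg.Agent.Tits.Exchange Cfsg.Agent.Tits
open Cfsg.Agent.FixBN (Sys)
open Cfsg.Agent.FixOdd (Tw)
open Cfsg.Agent.H454.PiBS
open Cfsg.Agent.H988.CPi (PiN PiN')

variable {I : Type*} {M : CoxeterMatrix I} {W : Type*} [Group W] {cs : CoxeterSystem M W} {C : Type*}

local prefix:100 "ℓ" => cs.length

variable {Δ : Bldg cs C} {G : Type*} [Group G] [MulAction G C] {p : ℕ}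
variable (S : Sys Δ G p) [F : OppRes.Cox cs]

/-- `H` maps `x` into the residue of its type -/
theorem smul_mem_Res (hth : Δ.Thick) {H : Subgroup G} {x : C} (hx : S.U x ≤ H) :
    ∀ n : ℕ, ∀ h ∈ H, ℓ (Δ.δ x (h • x)) = n → Δ.δ x (h • x) ∈ WJ cs (Ty Δ H x) := by
  intro n
  induction n using Nat.strong_induction_on with
  | _ n ih =>
  intro h hh hn
  by_cases hw : Δ.δ x (h • x) = 1
  · rw [hw]; exact one_mem _
  set y := h • x with hy
  have hUy : S.U y ≤ H := by
    intro u hu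
    have h1 := S.conj_mem_U hu h⁻¹
    rw [hy, inv_smul_smul] at h1
    have h2 := mul_mem (mul_mem hh (hx h1)) (inv_mem hh)
    have h3 : h * (h⁻¹ * u * h⁻¹⁻¹) * h⁻¹ = u := by group
    rwa [h3] at h2
  obtain ⟨s, hs⟩ := cs.exists_leftDescent_of_ne_one hw
  have hs' : ℓ (cs.simple s * Δ.δ x y) < ℓ (Δ.δ x y) := hs
  -- the projection `z` of `y` on the `s`-panel of `x`
  obtain ⟨z, hz1, hz2⟩ := Δ.exists_step y x s
  have hyz : Δ.δ z y = cs.simple s * Δ.δ x y := by
    rw [Δ.symm y z, hz2, Δ.symm x y, mul_inv_rev, inv_inv, cs.inv_simple]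
  have hzx : Δ.δ z x = cs.simple s := Δ.δ_symm_simple hz1
  -- another chamber of the panel
  obtain ⟨z', hz', hne⟩ : ∃ z', Δ.δ x z' = cs.simple s ∧ z' ≠ z := by
    obtain ⟨a, b, hab, ha, hb⟩ := hth x s
    by_cases haz : a = z
    · exact ⟨b, hb, fun h => hab (haz.trans h.symm)⟩
    · exact ⟨a, ha, haz⟩
  have hzz' : Δ.δ z z' = cs.simple s :=
    Δ.δ_eq_of_mem_Pan (x := x) (Δ.mem_Pan_of_δ hz1) (Δ.mem_Pan_of_δ hz') fun h => hne h.symm
  have hyz' : Δ.δ y z' = Δ.δ y x := by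
    have h1 := Δ.step_lt y z z' s hzz' (by
      rw [hz2, mul_assoc, cs.simple_mul_simple_self, mul_one, Δ.symm x y, ← cs.length_inv, mul_inv_rev, inv_inv,
        cs.inv_simple, cs.length_inv]
      exact hs')
    rw [h1, hz2, mul_assoc, cs.simple_mul_simple_self, mul_one]
  obtain ⟨u, hu, hux⟩ := S.exists_move (hyz'.symm)
  have hsT : s ∈ Ty Δ H x := ⟨u, hUy hu, by rw [hux]; exact hz'⟩
  -- move `x` to `z`
  obtain ⟨k₀, hk₀, hks⟩ := hsT
  obtain ⟨v, hv, hvz⟩ := S.exists_move (hks.trans hz1.symm)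
  have hk : v * k₀ ∈ H := mul_mem (hx hv) hk₀
  have hkx : (v * k₀) • x = z := by rw [mul_smul, hvz]
  have h5 : Δ.δ x (((v * k₀)⁻¹ * h) • x) = cs.simple s * Δ.δ x y := by
    rw [← hyz, ← hkx, mul_smul, ← S.iso (v * k₀) x, smul_inv_smul]
  have h6 := ih (ℓ (cs.simple s * Δ.δ x y)) (by rw [← hn]; exact hs') ((v * k₀)⁻¹ * h)
    (mul_mem (inv_mem hk) hh) (by rw [h5])
  rw [h5] at h6
  have h7 : Δ.δ x y = cs.simple s * (cs.simple s * Δ.δ x y) := by
    rw [← mul_assoc, cs.simple_mul_simple_self, one_mul]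
  rw [h7]
  exact mul_mem (simple_mem_WJ cs ⟨k₀, hk₀, hks⟩) h6

/-- the group generated by the `U y`, `y` in a residue -/
def LR (S : Sys Δ G p) (J : Set I) (x : C) : Subgroup G := ⨆ y : Δ.Res J x, S.U y

theorem U_le_LR {J : Set I} {x y : C} (hy : y ∈ Δ.Res J x) : S.U y ≤ LR S J x :=
  le_iSup (fun y : Δ.Res J x => S.U y) ⟨y, hy⟩

theorem LR_le {H : Subgroup G} {x : C} (hx : S.U x ≤ H) : LR S (Ty Δ H x) x ≤ H := by
  refine iSup_le ?_
  rintro ⟨y, hy⟩
  obtain ⟨h, hh, rfl⟩ := exists_smul_of_mem_Res S hx hy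
  intro u hu
  have h1 := S.conj_mem_U hu h⁻¹
  rw [inv_smul_smul] at h1
  have h2 := mul_mem (mul_mem hh (hx h1)) (inv_mem hh)
  have h3 : h * (h⁻¹ * u * h⁻¹⁻¹) * h⁻¹ = u := by group
  rwa [h3] at h2

/-- `LR` is transitive on the residue -/
theorem LR_trans (hth : Δ.Thick) {J : Set I} {x y : C} (hy : y ∈ Δ.Res J x) : ∃ l ∈ LR S J x, l • x = y := by
  have hx : S.U x ≤ LR S J x := U_le_LR S (Δ.self_mem_Res J x)
  have hJ : J ⊆ Ty Δ (LR S J x) x := by
    intro s hs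
    obtain ⟨a, b, hab, ha, hb⟩ := hth x s
    have haJ : a ∈ Δ.Res J x := Δ.Pan_subset_Res hs x (Δ.mem_Pan_of_δ ha)
    have hax : Δ.δ a x = cs.simple s := Δ.δ_symm_simple ha
    have hab' : Δ.δ a b = cs.simple s :=
      Δ.δ_eq_of_mem_Pan (x := x) (Δ.mem_Pan_of_δ ha) (Δ.mem_Pan_of_δ hb) hab
    obtain ⟨u, hu, hux⟩ := S.exists_move (hax.trans hab'.symm)
    exact ⟨u, U_le_LR S haJ hu, by rw [hux]; exact hb⟩
  exact exists_smul_of_mem_Res S hx (Δ.Res_mono hJ x hy)

include S in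
theorem smul_Res {J : Set I} {x : C} {g : G} (hg : g • x = x) {y : C} (hy : y ∈ Δ.Res J x) : g • y ∈ Δ.Res J x := by
  rw [mem_Res] at hy ⊢
  have h1 := S.iso g x y
  rw [hg] at h1
  rw [h1]; exact hy

/-- the stabiliser of `x` normalises `LR` -/
theorem stab_le_normalizer {J : Set I} {x : C} :
    MulAction.stabilizer G x ≤ normalizer (LR S J x : Set G) := by
  have key : ∀ g ∈ MulAction.stabilizer G x, ∀ u ∈ LR S J x, g * u * g⁻¹ ∈ LR S J x := by
    intro g hg u hu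
    have h1 : (LR S J x).map (MulAut.conj g).toMonoidHom ≤ LR S J x := by
      rw [LR, Subgroup.map_iSup]
      refine iSup_le ?_
      rintro ⟨y, hy⟩
      rintro _ ⟨v, hv, rfl⟩
      exact U_le_LR S (smul_Res S (MulAction.mem_stabilizer_iff.1 hg) hy) (S.conj_mem_U hv g)
    exact h1 ⟨u, hu, rfl⟩
  intro g hg
  rw [mem_normalizer_iff]
  intro u
  constructor
  · exact key g hg u
  · intro hu
    have := key g⁻¹ (inv_mem hg) _ hu
    have h7 : g⁻¹ * (g * u * g⁻¹) * g⁻¹⁻¹ = u := by group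
    rwa [h7] at this

/-- **Hall subgroups containing `U x` with the same type are equal.** -/
theorem eq_of_Ty_eq [Finite G] (hth : Δ.Thick) {x : C}
    (hab : ∀ a ∈ MulAction.stabilizer G x, ∀ b ∈ MulAction.stabilizer G x, a * b * a⁻¹ * b⁻¹ ∈ S.U x)
    {π : Set ℕ} {H H' : Subgroup G} (hH : IsPiHall π H) (hH' : IsPiHall π H') (hx : S.U x ≤ H) (hx' : S.U x ≤ H')
    (hT : Ty Δ H x = Ty Δ H' x) : H = H' := by
  set J := Ty Δ H x with hJ
  set K := H ⊓ MulAction.stabilizer G x with hK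
  set K' := H' ⊓ MulAction.stabilizer G x with hK'
  have hnorm : ∀ {N : Subgroup G}, S.U x ≤ N → MulAction.stabilizer G x ≤
      normalizer ((N ⊓ MulAction.stabilizer G x : Subgroup G) : Set G) := by
    intro N hN
    have key : ∀ g ∈ MulAction.stabilizer G x, ∀ u ∈ N ⊓ MulAction.stabilizer G x,
        g * u * g⁻¹ ∈ N ⊓ MulAction.stabilizer G x := by
      intro g hg u hu
      refine mem_inf.2 ⟨?_, mul_mem (mul_mem hg (mem_inf.1 hu).2) (inv_mem hg)⟩
      have hu := mem_inf.1 hu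
      have h1 := hab g hg u hu.2
      have h2 : g * u * g⁻¹ = (g * u * g⁻¹ * u⁻¹) * u := by group
      rw [h2]
      exact mul_mem (hN h1) hu.1
    intro g hg
    rw [mem_normalizer_iff]
    intro u
    constructor
    · exact key g hg u
    · intro hu
      have := key g⁻¹ (inv_mem hg) _ hu
      have h7 : g⁻¹ * (g * u * g⁻¹) * g⁻¹⁻¹ = u := by group
      rwa [h7] at this
  have hpi : ∀ {N : Subgroup G}, IsPiHall π N → ∀ {L : Subgroup G}, L ≤ N → IsPiSubgroup π L := by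
    intro N hN L hL r hr hd
    exact hN.1 r hr (hd.trans (card_dvd_of_le hL))
  have h1 : IsPiSubgroup π (K ⊔ K') :=
    pi_sup (inf_le_right.trans (hnorm hx')) (hpi hH inf_le_left) (hpi hH' inf_le_left)
  have h2 : IsPiSubgroup π (K ⊔ K' ⊔ LR S J x) :=
    pi_sup ((sup_le inf_le_right inf_le_right).trans (stab_le_normalizer S)) h1 (hpi hH (LR_le S hx))
  -- a Hall subgroup contained in a `π`-subgroup
  have hmax : ∀ {N : Subgroup G}, IsPiHall π N → ∀ {L : Subgroup G}, IsPiSubgroup π L → N ≤ L → N = L := by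
    intro N hN L hL hle
    refine le_antisymm hle ?_
    rw [← relIndex_eq_one]
    by_contra hne
    obtain ⟨r, hr, hd⟩ := Nat.exists_prime_and_dvd hne
    have h3 : r ∣ Nat.card L := hd.trans (relIndex_dvd_card N L)
    exact hN.2 r hr (hL r hr h3) (hd.trans (relIndex_dvd_index_of_le hle))
  have hle : H ≤ K ⊔ K' ⊔ LR S J x := by
    intro h hh
    have h3 := smul_mem_Res S hth hx _ h hh rfl
    obtain ⟨l, hl, hlx⟩ := LR_trans S hth (J := J) (x := x) (y := h • x) h3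
    have h4 : l⁻¹ * h ∈ K := by
      refine mem_inf.2 ⟨mul_mem (inv_mem (LR_le S hx hl)) hh, ?_⟩
      rw [MulAction.mem_stabilizer_iff, mul_smul, ← hlx, inv_smul_smul]
    have h5 : h = l * (l⁻¹ * h) := by group
    rw [h5]
    exact mul_mem ((le_sup_right : LR S J x ≤ _) hl) ((le_sup_left.trans le_sup_left : K ≤ K ⊔ K' ⊔ LR S J x) h4)
  have hle' : H' ≤ K ⊔ K' ⊔ LR S J x := by
    intro h hh
    have h3 := smul_mem_Res S hth hx' _ h hh rfl
    rw [← hT] at h3
    obtain ⟨l, hl, hlx⟩ := LR_trans S hth (J := J) (x := x) (y := h • x) h3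
    have h4 : l⁻¹ * h ∈ K' := by
      have hl' : l ∈ H' := LR_le S hx' (by rw [← hT]; exact hl)
      refine mem_inf.2 ⟨mul_mem (inv_mem hl') hh, ?_⟩
      rw [MulAction.mem_stabilizer_iff, mul_smul, ← hlx, inv_smul_smul]
    have h5 : h = l * (l⁻¹ * h) := by group
    rw [h5]
    exact mul_mem ((le_sup_right : LR S J x ≤ _) hl) ((le_sup_right.trans le_sup_left : K' ≤ K ⊔ K' ⊔ LR S J x) h4)
  rw [hmax hH h2 hle, ← hmax hH' h2 hle']

omit F in
include S in
/-- types of conjugates -/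
theorem Ty_conj (K : Subgroup G) (z : C) (g : G) :
    Ty Δ (K.map (MulAut.conj g).toMonoidHom) (g • z) = Ty Δ K z := by
  ext s
  constructor
  · rintro ⟨_, ⟨k, hk, rfl⟩, hs⟩
    refine ⟨k, hk, ?_⟩
    have h1 : Δ.δ (g • z) ((g * k * g⁻¹) • g • z) = cs.simple s := hs
    rw [mul_smul, inv_smul_smul, mul_smul, S.iso] at h1
    exact h1
  · rintro ⟨k, hk, hs⟩
    refine ⟨g * k * g⁻¹, ⟨k, hk, rfl⟩, ?_⟩
    rw [mul_smul, inv_smul_smul, mul_smul, S.iso]
    exact hs

/-- **An automorphism preserving the type of `H` fixes its class.** -/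
theorem fixC_of_type [Finite G] (hth : Δ.Thick) (htr : ∀ x y : C, ∃ g : G, g • x = y)
    (hab : ∀ x : C, ∀ a ∈ MulAction.stabilizer G x, ∀ b ∈ MulAction.stabilizer G x, a * b * a⁻¹ * b⁻¹ ∈ S.U x)
    {π : Set ℕ} {H : Subgroup G} (hH : IsPiHall π H) {x : C} (hx : S.U x ≤ H) (t : Tw Δ G)
    (hT : t.σ '' Ty Δ H x = Ty Δ H x) : FixC t.τ H := by
  obtain ⟨g, hg⟩ := htr (t.θ x) x
  set H' := (H.map t.τ.toMonoidHom).map (MulAut.conj g).toMonoidHom with hH'
  have h1 : IsPiHall π H' := by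
    have h2 : IsPiHall π (H.map t.τ.toMonoidHom) := by
      refine ⟨?_, ?_⟩
      · have h3 : PiN π (Nat.card (H.map t.τ.toMonoidHom)) := by
          rw [card_map_of_injective t.τ.injective]; exact hH.1
        exact h3
      · have h3 : PiN' π (H.map t.τ.toMonoidHom).index := by
          rw [index_map_of_bijective t.τ.bijective]; exact hH.2
        exact h3
    exact Cfsg.Agent.H988.CPi.isPiHall_smul h2 g
  have h2 : S.U x ≤ H' := by
    intro u hu
    have h3 := S.conj_mem_U hu g⁻¹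
    rw [← hg, inv_smul_smul] at h3
    have h4 := U_map_le S t hx h3
    refine ⟨_, h4, ?_⟩
    show g * (g⁻¹ * u * g⁻¹⁻¹) * g⁻¹ = u
    group
  have h3 : Ty Δ H' x = Ty Δ H x := by
    conv_lhs => rw [← hg]
    rw [hH', Ty_conj S, Ty_map, hT]
  have h4 : H' = H := eq_of_Ty_eq S hth (hab x) h1 hH h2 hx h3
  refine ⟨g⁻¹, ?_⟩
  have h5 : H.map t.τ.toMonoidHom = H'.map (MulAut.conj g⁻¹).toMonoidHom := by
    rw [hH', map_map]
    have h6 : (MulAut.conj g⁻¹).toMonoidHom.comp (MulAut.conj g).toMonoidHom = MonoidHom.id G := by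
      ext y
      simp [mul_assoc]
    rw [h6, map_id]
  exact h5.trans (by rw [h4])

end Cfsg.Agent.H561.RV.Own
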