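import Cfsg.Agent.H561.RV.Own
import Cfsg.Agent.H561.RV.DiagSym
import Cfsg.Agent.H967.SimpleIrr
import Cfsg.Agent.FixOdd.TwOf
import Cfsg.Agent.S0320

/-!
# TEAM RV, own characteristic `p ∈ π`: the rows for all simple groups with a split (B,N)-pair (helper561)

* `srow` : `SRow π K` for a finite simple group `K` with `AbSplit p K`, `p ∈ π`;
* `fixC_of_coprime_six` : automorphisms of order prime to six fix the classes of Hall `π`-subgroups;
* `fixC_of_odd` : the same for odd order if the diagram is not of type `D₄`.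
-/

set_option autoImplicit false
set_option linter.unusedSectionVars false

open scoped Pointwise

namespace Cfsg.Agent.H561.RV.Own

open Cfsg Subgroup Cfsg.Agent.Tits.Core Cfsg.Agent.Tits.Core.Bldg Cfsg.Agent.Tits.Exchange Cfsg.Agent.Tits
open Cfsg.Agent.FixBN (Sys Split)
open Cfsg.Agent.FixOdd (Tw)
open Cfsg.Agent.H454.PiBS
open Cfsg.Agent.H561.RV.DiagSym
open Cfsg.Agent.LieRecognition.CoxClass (Outcome Lab mD)

section abstract

variable {I : Type*} {M : CoxeterMatrix I} {W : Type*} [Group W] {cs : CoxeterSystem M W} {C : Type*}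

variable {Δ : Bldg cs C} {G : Type*} [Group G] [MulAction G C] {p : ℕ}
variable (S : Sys Δ G p) [F : OppRes.Cox cs]

include S in
/-- the type permutation is determined by the automorphism -/
theorem sigma_unique (hth : Δ.Thick) [Nonempty C] (t t' : Tw Δ G) (h : t.τ = t'.τ) : t.σ = t'.σ := by
  have hθ : ∀ x, t.θ x = t'.θ x := by
    intro x
    apply eq_of_U_le S hth
    intro u hu
    have h1 : (S.U (t.θ x)).map t.τ.symm.toMonoidHom ≤ S.U x := by
      apply S.max _ _ ((S.isP _).map _)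
      rintro _ ⟨v, hv, rfl⟩
      change t.τ.symm v • x = x
      apply t.θ.injective
      rw [t.θ_smul, MulEquiv.apply_symm_apply, S.fix _ v hv]
    have h2 : t.τ.symm u ∈ S.U x := h1 ⟨u, hu, rfl⟩
    have h3 : (S.U x).map t'.τ.toMonoidHom ≤ S.U (t'.θ x) := by
      apply S.max _ _ ((S.isP _).map _)
      rintro _ ⟨v, hv, rfl⟩
      change t'.τ v • t'.θ x = t'.θ x
      rw [← t'.θ_smul, S.fix _ v hv]
    have h4 : t'.τ (t.τ.symm u) ∈ S.U (t'.θ x) := h3 ⟨_, h2, rfl⟩
    rwa [← h, MulEquiv.apply_symm_apply] at h4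
  ext i
  obtain ⟨x⟩ := (inferInstance : Nonempty C)
  obtain ⟨y, hy, -⟩ := Δ.exists_step x x i
  have h1 := t.δ_θ x y
  have h2 := t'.δ_θ x y
  rw [hy, t.φ_simple] at h1
  rw [hy, t'.φ_simple, ← hθ, ← hθ, h1] at h2
  exact F.inj h2

/-- composition -/
def twMul (t t' : Tw Δ G) : Tw Δ G where
  τ := t.τ * t'.τ
  θ := t.θ * t'.θ
  φ := t'.φ.trans t.φ
  σ := t.σ * t'.σ
  φ_simple i := by
    rw [MulEquiv.trans_apply, t'.φ_simple, t.φ_simple]; rfl
  δ_θ x y := by
    rw [Equiv.Perm.mul_apply, Equiv.Perm.mul_apply, t.δ_θ, t'.δ_θ]; rfl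
  θ_smul g x := by
    rw [Equiv.Perm.mul_apply, t'.θ_smul, t.θ_smul]; rfl

/-- the identity -/
def twOne : Tw Δ G where
  τ := 1
  θ := 1
  φ := MulEquiv.refl W
  σ := 1
  φ_simple _ := rfl
  δ_θ _ _ := rfl
  θ_smul _ _ := rfl

/-- the homomorphism to the permutations of the types -/
noncomputable def rho (hth : Δ.Thick) [Nonempty C] (htw : ∀ φ : MulAut G, ∃ t : Tw Δ G, t.τ = φ) :
    MulAut G →* Equiv.Perm I where
  toFun φ := (htw φ).choose.σ
  map_one' := sigma_unique S hth _ twOne (htw 1).choose_spec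
  map_mul' φ ψ := sigma_unique S hth _ (twMul (htw φ).choose (htw ψ).choose) (by
    rw [(htw (φ * ψ)).choose_spec]
    change φ * ψ = (htw φ).choose.τ * (htw ψ).choose.τ
    rw [(htw φ).choose_spec, (htw ψ).choose_spec])

theorem rho_eq (hth : Δ.Thick) [Nonempty C] (htw : ∀ φ : MulAut G, ∃ t : Tw Δ G, t.τ = φ) (t : Tw Δ G) :
    rho S hth htw t.τ = t.σ := sigma_unique S hth _ t (htw t.τ).choose_spec

theorem rho_mem [Finite I] [Finite W] (hth : Δ.Thick) [Nonempty C] (htw : ∀ φ : MulAut G, ∃ t : Tw Δ G, t.τ = φ)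
    (φ : MulAut G) : rho S hth htw φ ∈ autM M := by
  obtain ⟨t, rfl⟩ := htw φ
  rw [rho_eq]
  exact tw_mem_autM t

/-- the class of `H` is fixed if and only if the type is -/
theorem fixC_iff_rho [Finite G] [hp : Fact p.Prime] (hth : Δ.Thick) [Nonempty C]
    (htw : ∀ φ : MulAut G, ∃ t : Tw Δ G, t.τ = φ) (htr : ∀ x y : C, ∃ g : G, g • x = y)
    (hab : ∀ x : C, ∀ a ∈ MulAction.stabilizer G x, ∀ b ∈ MulAction.stabilizer G x, a * b * a⁻¹ * b⁻¹ ∈ S.U x)
    {π : Set ℕ} (hpi : p ∈ π) {H : Subgroup G} (hH : IsPiHall π H) {x : C} (hx : S.U x ≤ H) (φ : MulAut G) :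
    FixC φ H ↔ rho S hth htw φ '' Ty Δ H x = Ty Δ H x := by
  obtain ⟨t, rfl⟩ := htw φ
  rw [rho_eq]
  constructor
  · rintro ⟨s, hs⟩
    have h1 : IsPiHall π (H.map (MulAut.conj s).toMonoidHom) := Cfsg.Agent.H988.CPi.isPiHall_smul hH s
    have h2 : S.U (s • x) ≤ H.map (MulAut.conj s).toMonoidHom := by
      intro u hu
      have h3 := S.conj_mem_U hu s⁻¹
      rw [inv_smul_smul] at h3
      exact ⟨_, hx h3, by simp [mul_assoc]⟩
    have h4 : S.U (t.θ x) ≤ H.map (MulAut.conj s).toMonoidHom := by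
      rw [← hs]; exact U_map_le S t hx
    have h5 := Ty_eq S hth hpi h1 h4 h2
    rw [Ty_conj S] at h5
    have h6 := Ty_map t H x
    have h7 : H.map t.τ.toMonoidHom = H.map (MulAut.conj s).toMonoidHom := hs
    rw [h7, h5] at h6
    exact h6.symm
  · exact fixC_of_type S hth htr hab hH hx t

end abstract

/-! ### Split (B,N)-pairs -/

universe u

variable {K : Type u} [Group K] {P : Cfsg.BNPair K} {p : ℕ} {U : Subgroup K}

/-- a split (B,N)-pair with `B / U` abelian (the body of `Omega.ML.LieRow.CRB.HasSplitAb`) -/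
def AbSplit (p : ℕ) (K : Type u) [Group K] : Prop :=
  ∃ (P : Cfsg.BNPair K) (U : Subgroup K), P.S.Nonempty ∧ Split P p U ∧
    ∀ x ∈ P.B, ∀ y ∈ P.B, x * y * x⁻¹ * y⁻¹ ∈ U

/-- the data attached to `AbSplit` -/
theorem exists_data [Finite K] [IsSimpleGroup K] (hp : p.Prime) (h : AbSplit p K) {π : Set ℕ} (hpi : p ∈ π) :
    ∃ (I : Type u) (_ : Finite I) (M : CoxeterMatrix I) (ρ : MulAut K →* Equiv.Perm I) (T : Subgroup K → Set I),
      (∀ φ, ρ φ ∈ autM M) ∧ (Nat.card I ≤ 2 ∨ Outcome M) ∧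
      ∀ H : Subgroup K, IsPiHall π H → ∀ φ : MulAut K, FixC φ H ↔ ρ φ '' T H = T H := by
  obtain ⟨P, U, hne, hs, hT⟩ := h
  have : Fact p.Prime := ⟨hp⟩
  have hN : ((P.B ⊓ P.N).subgroupOf P.N).Normal := OfBN.normal_subgroupOf P
  obtain ⟨M, cs, hcs⟩ := S0320.result P
  have hI : Finite P.S := FixBN.OfBN.finite_I (Equiv.refl P.S)
  have hC : OppRes.Cox cs := inferInstance
  have hW : Finite (OfBN.WP P) := inferInstance
  have hth := OfBN.thick P (Equiv.refl P.S) cs hcs
  let S := FixBN.OfBN.sys (Equiv.refl P.S) cs hcs hs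
  have htw : ∀ φ : MulAut K, ∃ t : Tw (OfBN.bldg P (Equiv.refl P.S) cs hcs) K, t.τ = φ := fun φ => by
    obtain ⟨t, ht, -⟩ := FixOdd.exists_tw hs (Equiv.refl P.S) cs hcs φ
    exact ⟨t, ht⟩
  have htr : ∀ x y : K ⧸ P.B, ∃ g : K, g • x = y := fun x y => by
    induction x using QuotientGroup.induction_on with
    | _ a =>
    induction y using QuotientGroup.induction_on with
    | _ b =>
    refine ⟨b * a⁻¹, ?_⟩
    rw [FixBN.OfBN.smul_mk, inv_mul_cancel_right]
  have hab : ∀ x : K ⧸ P.B, ∀ a ∈ MulAction.stabilizer K x, ∀ b ∈ MulAction.stabilizer K x,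
      a * b * a⁻¹ * b⁻¹ ∈ S.U x := by
    intro x a ha b hb
    induction x using QuotientGroup.induction_on with
    | _ g =>
    change a * b * a⁻¹ * b⁻¹ ∈ FixBN.OfBN.UU P U (QuotientGroup.mk g)
    rw [FixBN.OfBN.mem_UU hs]
    have h1 := hT _ (FixBN.OfBN.smul_mk_eq.1 ha) _ (FixBN.OfBN.smul_mk_eq.1 hb)
    convert h1 using 1
    group
  have hex : ∀ H : Subgroup K, IsPiHall π H → ∃ x : K ⧸ P.B, S.U x ≤ H := by
    intro H hH
    obtain ⟨z, Q, -, hQ⟩ := exists_U_le S hH hpi (V := (⊥ : Subgroup K)) IsPGroup.of_bot bot_le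
    exact ⟨z, by rw [hQ]; exact map_subtype_le _⟩
  classical
  refine ⟨P.S, hI, M, rho S hth htw,
    fun H => if hH : IsPiHall π H then Ty (OfBN.bldg P (Equiv.refl P.S) cs hcs) H (hex H hH).choose else ∅,
    fun φ => rho_mem S hth htw φ, ?_, ?_⟩
  · rcases Nat.lt_or_ge 2 (Nat.card P.S) with h | h
    · right
      exact Cfsg.Agent.LieRecognition.BNCox.outcome P cs hcs (Cfsg.Agent.H967.SimpleIrr.irreducible hs) h
    · exact Or.inl h
  · intro H hH φ
    simp only [dif_pos hH]
    exact fixC_iff_rho S hth htw htr hab hpi hH (hex H hH).choose_spec φ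

/-- **odd automorphisms fix the classes if the diagram is not of type `D₄`; automorphisms of order prime to `6` always** -/
theorem fixC_of_coprime_six [Finite K] [IsSimpleGroup K] (hp : p.Prime) (h : AbSplit p K) {π : Set ℕ} (hpi : p ∈ π)
    {H : Subgroup K} (hH : IsPiHall π H) {φ : MulAut K} (hφ : (orderOf φ).Coprime 6) : FixC φ H := by
  obtain ⟨I, _, M, ρ, T, h1, h2, h3⟩ := exists_data hp h hpi
  have hodd : Odd (orderOf (ρ φ)) := by
    have : Odd (orderOf φ) := by
      rw [← Nat.coprime_two_right]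
      exact Nat.Coprime.coprime_dvd_right (by norm_num) hφ
    exact this.of_dvd_nat (orderOf_map_dvd ρ φ)
  have h4 : ρ φ = 1 := by
    rcases h2 with h2 | h2
    · exact odd_trivial_two h2 hodd
    · by_cases hD : IsD4 M
      · obtain ⟨v, hv⟩ := hD
        -- the sixth power of a symmetry is trivial
        have h6 : (ρ φ) ^ 6 = 1 := by
          have tr : ∀ i j : Fin 4, mD 4 ((v.trans (ρ φ)).trans v.symm i) ((v.trans (ρ φ)).trans v.symm j) = mD 4 i j := by
            intro i j
            rw [← hv, ← hv i j]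
            simp only [Equiv.trans_apply, Equiv.apply_symm_apply]
            exact h1 φ _ _
          have h := d4_aux _ tr
          have hpow : ∀ k : ℕ, ∀ i, v ((((v.trans (ρ φ)).trans v.symm : Equiv.Perm (Fin 4)) ^ k) i) = (ρ φ ^ k) (v i) := by
            intro k
            induction k with
            | zero => intro i; rfl
            | succ k ih =>
              intro i
              rw [pow_succ, Equiv.Perm.mul_apply, ih, pow_succ, Equiv.Perm.mul_apply]
              congr 1
              exact v.apply_symm_apply _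
          ext i
          have h1 := hpow 6 (v.symm i)
          rw [h, v.apply_symm_apply] at h1
          rw [← h1]
          simp
        have h7 : orderOf (ρ φ) ∣ 6 := orderOf_dvd_of_pow_eq_one h6
        have h8 : (orderOf (ρ φ)).Coprime 6 := Nat.Coprime.coprime_dvd_left (orderOf_map_dvd ρ φ) hφ
        exact orderOf_eq_one_iff.1 (Nat.Coprime.eq_one_of_dvd h8 h7)
      · exact odd_trivial h2 hD (h1 φ) hodd
  rw [h3 H hH φ, h4]
  simp

/-- **The row `SRow` in own characteristic.** -/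
theorem srow [Finite K] [IsSimpleGroup K] (hp : p.Prime) (h : AbSplit p K) {π : Set ℕ} (hpi : p ∈ π) : SRow π K := by
  obtain ⟨I, _, M, ρ, T, h1, h2, h3⟩ := exists_data hp h hpi
  intro X hX
  have hfin : Finite (MulAut K) := Finite.of_injective (fun f : MulAut K => (f : K → K)) DFunLike.coe_injective
  -- the case where the odd elements of `X` act trivially on the diagram
  have key : (∀ φ ∈ X, Odd (orderOf φ) → ρ φ = 1) → ∃ H : Subgroup K, IsPiHall π H ∧ ∀ φ ∈ X, FixC φ H := by
    intro hodd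
    obtain ⟨Q⟩ : Nonempty (Sylow 2 X) := inferInstance
    obtain ⟨H, hH, hR⟩ := hX 2 Nat.prime_two ((Q : Subgroup X).map X.subtype) (map_subtype_le _)
      (Q.isPGroup'.map _)
    refine ⟨H, hH, fun φ hφ => ?_⟩
    exact le_of_sylow_two (F := fixer H) Q (fun φ hφ => hR φ hφ) (fun φ hφ ho => by
      rw [mem_fixer, h3 H hH φ, hodd φ hφ ho]
      simp) hφ
  rcases h2 with h2 | h2
  · exact key fun φ _ ho => odd_trivial_two h2 (ho.of_dvd_nat (orderOf_map_dvd ρ φ))
  by_cases hD : IsD4 M
  · obtain ⟨v, hv⟩ := hD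
    by_cases hall : ∀ φ ∈ X, Odd (orderOf φ) → ρ φ = 1
    · exact key hall
    · push Not at hall
      obtain ⟨c, hcX, hco, hc1⟩ := hall
      have hodd : Odd (orderOf (ρ c)) := hco.of_dvd_nat (orderOf_map_dvd ρ c)
      -- a `3`-element
      have h6 : (ρ c) ^ 3 = 1 := by
        have tr : ∀ i j : Fin 4, mD 4 ((v.trans (ρ c)).trans v.symm i) ((v.trans (ρ c)).trans v.symm j) = mD 4 i j := by
          intro i j
          rw [← hv, ← hv i j]
          simp only [Equiv.trans_apply, Equiv.apply_symm_apply]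
          exact h1 c _ _
        have h := d4_aux _ tr
        have hpow : ∀ k : ℕ, ∀ i, v ((((v.trans (ρ c)).trans v.symm : Equiv.Perm (Fin 4)) ^ k) i) = (ρ c ^ k) (v i) := by
          intro k
          induction k with
          | zero => intro i; rfl
          | succ k ih =>
            intro i
            rw [pow_succ, Equiv.Perm.mul_apply, ih, pow_succ, Equiv.Perm.mul_apply]
            congr 1
            exact v.apply_symm_apply _
        have h7 : (ρ c) ^ 6 = 1 := by
          ext i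
          have h1 := hpow 6 (v.symm i)
          rw [h, v.apply_symm_apply] at h1
          rw [← h1]
          simp
        have h8 : orderOf (ρ c) ∣ 3 := by
          have h9 : orderOf (ρ c) ∣ 2 * 3 := orderOf_dvd_of_pow_eq_one h7
          exact (Nat.Coprime.dvd_of_dvd_mul_left (Nat.coprime_two_right.2 hodd) h9)
        exact orderOf_dvd_iff_pow_eq_one.1 h8
      -- the `3`-part of `c`
      obtain ⟨a, m, hm, ho⟩ := Nat.exists_eq_pow_mul_and_not_dvd (n := orderOf c) (orderOf_pos c).ne' 3 (by norm_num)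
      set d := c ^ m with hd
      have hd3 : d ^ 3 ^ a = 1 := by
        rw [hd, ← pow_mul, mul_comm, ← ho, pow_orderOf_eq_one]
      have hρd : ρ d ≠ 1 := by
        intro h
        rw [hd, map_pow] at h
        apply hc1
        have h9 : orderOf (ρ c) ∣ 3 := orderOf_dvd_of_pow_eq_one h6
        have h10 : orderOf (ρ c) ∣ m := orderOf_dvd_of_pow_eq_one h
        have h11 : Nat.Coprime 3 m := (Nat.Prime.coprime_iff_not_dvd Nat.prime_three).2 hm
        exact orderOf_eq_one_iff.1 (Nat.Coprime.eq_one_of_dvd (h11.coprime_dvd_left h9) h10)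
      have hp3 : IsPGroup 3 (zpowers d) := by
        refine IsPGroup.of_card (n := (orderOf d).factorization 3) ?_
        rw [Nat.card_zpowers]
        obtain ⟨k, -, hk⟩ := (Nat.dvd_prime_pow Nat.prime_three).1 (orderOf_dvd_of_pow_eq_one hd3)
        rw [hk, Nat.prime_three.factorization_pow]
        simp
      obtain ⟨H, hH, hR⟩ := hX 3 Nat.prime_three (zpowers d) ((zpowers_le).2 (X.pow_mem hcX m)) hp3
      refine ⟨H, hH, fun φ _ => ?_⟩
      rw [h3 H hH φ]
      have h12 := (h3 H hH d).1 (hR d (mem_zpowers d))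
      have hodd' : Odd (orderOf (ρ d)) := by
        have : ρ d = (ρ c) ^ m := by rw [hd, map_pow]
        rw [this]
        exact hodd.of_dvd_nat (orderOf_pow_dvd m)
      exact d4_stable v hv (h1 d) hρd hodd' (h1 φ) h12
  · exact key fun φ _ ho => odd_trivial h2 hD (h1 φ) (ho.of_dvd_nat (orderOf_map_dvd ρ φ))

end Cfsg.Agent.H561.RV.Own
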