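import Cfsg.Agent.H561.RV.Defs
import Cfsg.Agent.H553.ExtRed

/-!
# S4311: reduction to the rows `SRow` of the finite simple groups (helper561)

`lift_of_rows` : if all nonabelian simple groups with a Hall `π`-subgroup satisfy `SRow π` then every Hall `π`-subgroup of
a quotient of an `E_π`-group is the image of a Hall `π`-subgroup.
-/

set_option autoImplicit false

namespace Cfsg.Agent.H561.RV

open Subgroup Cfsg Cfsg.Agent.H988.CPi Cfsg.Agent.Lib.MinNormal Cfsg.Agent.Lib.MinNormalNonabelian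
open Cfsg.Agent.H553.ExtRed (card_iSup piN_prod piN'_prod exists_prod epi_top)
open scoped Pointwise

universe u

variable {π : Set ℕ} {G : Type u} [Group G] [Finite G]

/-! ### Elementary facts -/

theorem conj_eq' {G : Type*} [Group G] (g : G) (H : Subgroup G) :
    H.map (MulAut.conj g).toMonoidHom = MulAut.conj g • H := rfl

theorem conj_smul_eq_of_mem {G : Type*} [Group G] {N : Subgroup G} [N.Normal] (x : G) : MulAut.conj x • N = N :=
  map_conj_normal x N

theorem conj_smul_self {G : Type*} [Group G] {H : Subgroup G} {x : G} (hx : x ∈ H) : MulAut.conj x • H = H := by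
  ext y
  rw [mem_smul_pointwise_iff_exists]
  constructor
  · rintro ⟨z, hz, rfl⟩
    exact H.mul_mem (H.mul_mem hx hz) (H.inv_mem hx)
  · intro hy
    exact ⟨x⁻¹ * y * x, H.mul_mem (H.mul_mem (H.inv_mem hx) hy) hx, by simp [mul_assoc]⟩

theorem exists_sylow_le_of_not_dvd_index {G : Type*} [Group G] [Finite G] {r : ℕ} [Fact r.Prime] {H : Subgroup G}
    (h : ¬ r ∣ H.index) : ∃ Q : Sylow r G, (Q : Subgroup G) ≤ H := by
  obtain ⟨Q⟩ : Nonempty (Sylow r H) := inferInstance
  have h1 : ¬ r ∣ ((Q : Subgroup H).map H.subtype).index := by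
    rw [index_map_subtype]
    intro hd
    rcases ((Fact.out : r.Prime).dvd_mul).1 hd with h' | h'
    · exact Q.not_dvd_index h'
    · exact h h'
  exact ⟨(Q.isPGroup'.map H.subtype).toSylow h1, map_subtype_le _⟩

/-- Frattini and Schur-Zassenhaus -/
theorem hall_of_inv (A L B : Subgroup G) [A.Normal] (hAL : A ≤ L) (hBA : B ≤ A) (hB : PiN π (Nat.card B))
    (hB' : PiN' π (B.relIndex A)) (hL : PiN π (A.relIndex L)) (hLi : PiN' π L.index)
    (hinv : ∀ x ∈ L, ∃ a ∈ A, MulAut.conj x • B = MulAut.conj a • B) :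
    ∃ H : Subgroup G, IsPiHall π H ∧ H ≤ L := by
  obtain ⟨⟨H, hH⟩, -⟩ := cpi_normalizer A L B hAL hBA hB hB' hL
  refine ⟨H.map (Subgroup.subtype _), ⟨?_, ?_⟩, ?_⟩
  · have : PiN π (Nat.card (H.map (Subgroup.subtype (normalizer (B : Set G) ⊓ L)))) := by
      rw [card_map_of_injective (Subgroup.subtype_injective _)]; exact hH.1
    exact this
  · have : PiN' π (H.map (Subgroup.subtype (normalizer (B : Set G) ⊓ L))).index := by
      rw [index_map_subtype]
      refine PiN'.mul hH.2 ?_
      have h3 : A ⊔ (normalizer (B : Set G) ⊓ L) = L := by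
        apply le_antisymm (sup_le hAL inf_le_right)
        intro x hx
        obtain ⟨a, ha, h⟩ := hinv x hx
        have h6 : MulAut.conj (a⁻¹ * x) • B = B := by
          rw [map_mul, mul_smul, h, ← mul_smul, ← map_mul, inv_mul_cancel, map_one, one_smul]
        have h7 : a⁻¹ * x ∈ normalizer (B : Set G) := by
          rw [mem_normalizer_iff]
          intro y
          constructor
          · intro hy
            have : (MulAut.conj (a⁻¹ * x)) y ∈ MulAut.conj (a⁻¹ * x) • B := ⟨y, hy, rfl⟩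
            rw [h6] at this
            exact this
          · intro hy
            have h8 : a⁻¹ * x * y * (a⁻¹ * x)⁻¹ ∈ MulAut.conj (a⁻¹ * x) • B := by rw [h6]; exact hy
            obtain ⟨s, hs, h9⟩ := h8
            have : y = s := by
              have h10 : (MulAut.conj (a⁻¹ * x)) s = (MulAut.conj (a⁻¹ * x)) y := h9
              exact ((MulAut.conj (a⁻¹ * x)).injective h10).symm
            rw [this]
            exact hs
        have : x = a * (a⁻¹ * x) := by group
        rw [this]
        exact mul_mem_sup ha (mem_inf.mpr ⟨h7, L.mul_mem (L.inv_mem (hAL ha)) hx⟩)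
      rw [← relIndex_mul_index (inf_le_right : normalizer (B : Set G) ⊓ L ≤ L)]
      refine PiN'.mul ?_ hLi
      set M := normalizer (B : Set G) ⊓ L with hM
      have h4 : M.relIndex L = M.relIndex A := by
        have h5 := relIndex_mul_sup_index M A
        have h6 := relIndex_mul_index (inf_le_right : M ≤ L)
        rw [sup_comm, h3] at h5
        exact Nat.eq_of_mul_eq_mul_right (Nat.pos_of_ne_zero index_ne_zero_of_finite) (h6.trans h5.symm)
      rw [h4]
      exact PiN'.of_dvd hB' (relIndex_dvd_of_le_left A (le_inf le_normalizer (hBA.trans hAL)))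
    exact this
  · exact (map_subtype_le H).trans inf_le_right

/-- Step 1: an `r`-subgroup of `L` fixes an `N`-class of Hall subgroups of `N`. -/
theorem exists_fix_class (N L : Subgroup G) [N.Normal] (hL : PiN π (N.relIndex L))
    (hE : IsEPiGroup π G) {r : ℕ} (hr : r.Prime) (R : Subgroup G) (hRL : R ≤ L) (hR : IsPGroup r R) :
    ∃ B : Subgroup G, B ≤ N ∧ PiN π (Nat.card B) ∧ PiN' π (B.relIndex N) ∧
      ∀ x ∈ R, ∃ a ∈ N, MulAut.conj x • B = MulAut.conj a • B := by
  obtain ⟨H₀, hH₀⟩ := hE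
  -- intersections of Hall subgroups of `G` with `N`
  have hint : ∀ H : Subgroup G, IsPiHall π H → PiN π (Nat.card ↥(H ⊓ N)) ∧ PiN' π ((H ⊓ N).relIndex N) := by
    intro H hH
    have h1 := isPiHall_subgroupOf hH N
    refine ⟨PiN.of_dvd hH.1 (card_dvd_of_le inf_le_left), ?_⟩
    rw [inf_relIndex_right]
    exact h1.2
  by_cases hrπ : r ∈ π
  · -- `R ≤ H₁ ⊔ N`
    have : Fact r.Prime := ⟨hr⟩
    obtain ⟨P, hP⟩ := hR.exists_le_sylow
    have h1 : ¬ r ∣ (H₀ ⊔ N).index := by
      intro h
      exact hH₀.2 r hr hrπ (h.trans (index_dvd_of_le le_sup_left))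
    obtain ⟨Q, hQ⟩ := exists_sylow_le_of_not_dvd_index h1
    obtain ⟨g, hg⟩ := MulAction.exists_smul_eq G Q P
    set H₁ := MulAut.conj g • H₀ with hH₁
    have hHall : IsPiHall π H₁ := isPiHall_smul hH₀ g
    have hRle : R ≤ H₁ ⊔ N := by
      intro x hx
      have h2 : x ∈ (P : Subgroup G) := hP hx
      rw [← hg] at h2
      have h3 : x ∈ MulAut.conj g • (Q : Subgroup G) := by rw [Sylow.coe_subgroup_smul] at h2; exact h2
      have h4 : x ∈ MulAut.conj g • (H₀ ⊔ N) := (smul_mono_right _ hQ) h3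
      rw [smul_sup, conj_smul_eq_of_mem (N := N) g] at h4
      exact h4
    refine ⟨H₁ ⊓ N, inf_le_right, (hint H₁ hHall).1, (hint H₁ hHall).2, fun x hx => ?_⟩
    have h5 := hRle hx
    rw [mem_sup_of_normal_right] at h5
    obtain ⟨h, hh, n, hn, rfl⟩ := h5
    refine ⟨h * n * h⁻¹, (inferInstance : N.Normal).conj_mem n hn h, ?_⟩
    have h6 : h * n = h * n * h⁻¹ * h := by group
    have h7 : MulAut.conj h • (H₁ ⊓ N) = H₁ ⊓ N := by
      rw [smul_inf, conj_smul_self hh, conj_smul_eq_of_mem]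
    conv_lhs => rw [h6, map_mul, mul_smul, h7]
  · -- `R ≤ N`
    refine ⟨H₀ ⊓ N, inf_le_right, (hint H₀ hH₀).1, (hint H₀ hH₀).2, fun x hx => ⟨x, ?_, rfl⟩⟩
    obtain ⟨k, hk⟩ := hR ⟨x, hx⟩
    have hk' : x ^ r ^ k = 1 := congrArg Subtype.val hk
    have h1 : x ^ N.relIndex L ∈ N := by
      have h2 : (⟨x, hRL hx⟩ : L) ^ (N.subgroupOf L).index ∈ N.subgroupOf L := Subgroup.pow_index_mem _ _
      exact h2
    have hcop : (N.relIndex L).Coprime (r ^ k) := by
      refine (Nat.Coprime.pow_left k ?_).symm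
      rw [Nat.Prime.coprime_iff_not_dvd hr]
      exact fun h => hrπ (hL r hr h)
    exact mem_of_pow_mem hcop h1 (by rw [hk']; exact one_mem _)

/-- lifting `r`-subgroups -/
theorem exists_lift_pGroup {A B : Type*} [Group A] [Finite A] [Group B] (f : A →* B) {r : ℕ} (hr : r.Prime)
    (R : Subgroup B) (hR : IsPGroup r R) (hle : R ≤ f.range) :
    ∃ P : Subgroup A, IsPGroup r P ∧ P.map f = R := by
  have : Fact r.Prime := ⟨hr⟩
  have hfr : Finite f.range := Finite.of_surjective f.rangeRestrict f.rangeRestrict_surjective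
  have hfR : Finite R := Finite.of_injective (Subgroup.inclusion hle) (Subgroup.inclusion_injective hle)
  set C := R.comap f with hC
  let f' : C →* R := (f.comp C.subtype).codRestrict R fun x => x.2
  have hf' : Function.Surjective f' := by
    rintro ⟨y, hy⟩
    obtain ⟨x, rfl⟩ := hle hy
    exact ⟨⟨x, hy⟩, rfl⟩
  obtain ⟨Q⟩ : Nonempty (Sylow r C) := inferInstance
  refine ⟨(Q : Subgroup C).map C.subtype, Q.isPGroup'.map _, ?_⟩
  have h1 : (Q : Subgroup C).map f' = ⊤ := by
    have h2 := (Q.mapSurjective hf').isPGroup'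
    have h3 : IsPGroup r (⊤ : Subgroup R) := hR.to_subgroup ⊤
    exact ((Q.mapSurjective hf').is_maximal' h3 le_top).symm
  ext y
  constructor
  · rintro ⟨_, ⟨x, hx, rfl⟩, rfl⟩
    exact x.2
  · intro hy
    have h4 : (⟨y, hy⟩ : R) ∈ (Q : Subgroup C).map f' := by rw [h1]; trivial
    obtain ⟨x, hx, hxy⟩ := h4
    exact ⟨x, ⟨x, hx, rfl⟩, congrArg Subtype.val hxy⟩

omit [Finite G] in
/-- the coordinates of the elements of `N` -/
theorem exists_coord {N : Subgroup G} (s2 : sSupIndep (minSet N)) (s3 : sSup (minSet N) = N) {T : Subgroup G}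
    (hT : T ∈ minSet N) {a : G} (ha : a ∈ N) : ∃ t ∈ T, ∀ s ∈ T, Commute (t⁻¹ * a) s := by
  let D : Subgroup G :=
    { carrier := {g | ∃ t ∈ T, ∀ s ∈ T, Commute (t⁻¹ * g) s}
      one_mem' := ⟨1, T.one_mem, fun s _ => by simp⟩
      mul_mem' := by
        rintro g g' ⟨t, ht, h⟩ ⟨t', ht', h'⟩
        refine ⟨t * t', T.mul_mem ht ht', fun s hs => ?_⟩
        have h1 : (t * t')⁻¹ * (g * g') = (t⁻¹ * g) * (t'⁻¹ * g') := by
          have h2 := (h t'⁻¹ (T.inv_mem ht')).eq
          calc (t * t')⁻¹ * (g * g') = t'⁻¹ * (t⁻¹ * g) * g' := by group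
            _ = (t⁻¹ * g) * t'⁻¹ * g' := by rw [← h2]
            _ = _ := by group
        rw [h1]
        exact (h s hs).mul_left (h' s hs)
      inv_mem' := by
        rintro g ⟨t, ht, h⟩
        refine ⟨t⁻¹, T.inv_mem ht, fun s hs => ?_⟩
        have h1 : t⁻¹⁻¹ * g⁻¹ = (t⁻¹ * g)⁻¹ := by
          have h2 := (h t ht).eq
          have h3 : t⁻¹ * g = g * t⁻¹ := by
            have : t⁻¹ * g * t = g := by rw [h2]; group
            exact eq_mul_inv_of_mul_eq this
          rw [h3]; group
        rw [h1]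
        exact (h s hs).inv_left }
  have hle : sSup (minSet N) ≤ D := by
    refine sSup_le fun U hU u hu => ?_
    by_cases hUT : U = T
    · subst hUT
      exact ⟨u, hu, fun s _ => by simp⟩
    · refine ⟨1, T.one_mem, fun s hs => ?_⟩
      rw [inv_one, one_mul]
      exact commute_of_mem s2 (fun U hU => hU.2.2.1) (fun U hU => hU.1) hU hT hUT hu hs
  exact hle (by rw [s3]; exact ha)

/-- Step 2 and 3: from the row of the simple group `T`: a Hall subgroup of `T` whose `T`-class is fixed by `N_L(T)`. -/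
theorem exists_good_hall (hrow : ∀ (S : Type u) [Group S] [Finite S] [IsSimpleGroup S], ¬ IsMulCommutative S →
      IsEPiGroup π S → SRow π S)
    (N L : Subgroup G) [N.Normal] (s2 : sSupIndep (minSet N)) (s3 : sSup (minSet N) = N)
    (hL : PiN π (N.relIndex L)) (hE : IsEPiGroup π G) {T : Subgroup G} (hT : T ∈ minSet N)
    (hTs : IsSimpleGroup T) (hTc : ∀ z ∈ T, (∀ t ∈ T, Commute z t) → z = 1) :
    ∃ H : Subgroup G, H ≤ T ∧ PiN π (Nat.card H) ∧ PiN' π (H.relIndex T) ∧
      ∀ x ∈ L, MulAut.conj x • T = T → ∃ t ∈ T, MulAut.conj x • H = MulAut.conj t • H := by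
  have hTN : T ≤ N := hT.1
  have hna : ¬ IsMulCommutative T := by
    intro h
    apply hT.2.1
    rw [eq_bot_iff]
    intro z hz
    exact hTc z hz fun t ht => congrArg Subtype.val (h.is_comm.comm ⟨z, hz⟩ ⟨t, ht⟩)
  -- `T` is normal in `N`
  have hTn : (T.subgroupOf N).Normal := by
    refine ⟨fun t ht n => ?_⟩
    obtain ⟨t', ht', hc⟩ := exists_coord s2 s3 hT n.2
    have h1 : (n : G) * t * (n : G)⁻¹ ∈ T := by
      have h2 := (hc t ht).eq
      have h3 : (n : G) * t * (n : G)⁻¹ = t' * t * t'⁻¹ := by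
        have h4 : (n : G) = t' * (t'⁻¹ * n) := by group
        have h5 : (t'⁻¹ * (n : G)) * t * (t'⁻¹ * n)⁻¹ = t := by rw [h2]; group
        calc (n : G) * t * (n : G)⁻¹ = t' * ((t'⁻¹ * (n : G)) * t * (t'⁻¹ * n)⁻¹) * t'⁻¹ := by group
          _ = _ := by rw [h5]
      rw [h3]
      exact T.mul_mem (T.mul_mem ht' ht) (T.inv_mem ht')
    exact h1
  -- Hall subgroups of `N` give Hall subgroups of `T`
  have hinter : ∀ B : Subgroup G, B ≤ N → PiN π (Nat.card B) → PiN' π (B.relIndex N) →
      IsPiHall π (B.subgroupOf T) := by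
    intro B hBN h1 h2
    have h3 : IsPiHall π (B.subgroupOf N) := by
      refine ⟨?_, h2⟩
      have : PiN π (Nat.card (B.subgroupOf N)) := by
        rw [← card_map_of_injective N.subtype_injective, subgroupOf_map_subtype, inf_of_le_left hBN]
        exact h1
      exact this
    have h4 := isPiHall_subgroupOf h3 (T.subgroupOf N)
    refine ⟨?_, ?_⟩
    · have h5 : PiN π (Nat.card (B.subgroupOf T)) := by
        rw [← card_map_of_injective T.subtype_injective, subgroupOf_map_subtype]
        exact PiN.of_dvd h1 (card_dvd_of_le inf_le_left)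
      exact h5
    · have h5 : (B.subgroupOf N).relIndex (T.subgroupOf N) = B.relIndex T := relIndex_subgroupOf hTN
      have h6 : PiN' π (B.subgroupOf T).index := by
        have h7 : PiN' π ((B.subgroupOf N).relIndex (T.subgroupOf N)) := h4.2
        rw [h5] at h7
        exact h7
      exact h6
  -- the action of `N_L(T)`
  set M := L.subgroupOf (normalizer (T : Set G)) with hM
  let f : M →* MulAut T := T.normalizerMonoidHom.comp M.subtype
  have hf : ∀ (x : M) (t : T), ((f x t : T) : G) = (x : G) * t * (x : G)⁻¹ := fun x t => rfl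
  -- `f x` and conjugation
  have hfs : ∀ (x : M) (K : Subgroup T), (f x • K).map T.subtype = MulAut.conj ((x : normalizer (T : Set G)) : G) •
      (K.map T.subtype) := by
    intro x K
    ext y
    simp only [mem_map, mem_smul_pointwise_iff_exists]
    constructor
    · rintro ⟨a, ⟨b, hb, rfl⟩, rfl⟩
      exact ⟨b, ⟨b, hb, rfl⟩, rfl⟩
    · rintro ⟨a, ⟨b, hb, rfl⟩, rfl⟩
      exact ⟨f x b, ⟨b, hb, rfl⟩, rfl⟩
  have hmapinj : ∀ K K' : Subgroup T, K.map T.subtype = K'.map T.subtype → K = K' := fun K K' h =>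
    map_injective T.subtype_injective h
  have hrowT := hrow T hna (by
    obtain ⟨B, hB1, hB2, hB3, -⟩ := exists_fix_class N L hL hE Nat.prime_two ⊥ bot_le IsPGroup.of_bot
    exact ⟨_, hinter B hB1 hB2 hB3⟩) f.range (by
    intro r hr R hRle hR
    obtain ⟨P, hP, hPR⟩ := exists_lift_pGroup f hr R hR hRle
    set P' : Subgroup G := (P.map M.subtype).map (Subgroup.subtype _) with hP'
    have hP'L : P' ≤ L := by
      rintro _ ⟨_, ⟨y, -, rfl⟩, rfl⟩
      exact y.2
    obtain ⟨B, hB1, hB2, hB3, hB4⟩ := exists_fix_class N L hL hE hr P' hP'L ((hP.map _).map _)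
    refine ⟨B.subgroupOf T, hinter B hB1 hB2 hB3, ?_⟩
    intro φ hφ
    rw [← hPR] at hφ
    obtain ⟨x, hx, rfl⟩ := hφ
    obtain ⟨a, ha, hxa⟩ := hB4 _ ⟨_, ⟨x, hx, rfl⟩, rfl⟩
    obtain ⟨t, ht, hc⟩ := exists_coord s2 s3 hT ha
    refine fixC_iff.2 ⟨⟨t, ht⟩, hmapinj _ _ ?_⟩
    rw [hfs, Cfsg.Agent.Solvable.SZ.map_conj_smul, subgroupOf_map_subtype]
    change MulAut.conj ((x : normalizer (T : Set G)) : G) • (B ⊓ T) = MulAut.conj t • (B ⊓ T)
    change MulAut.conj ((x : normalizer (T : Set G)) : G) • B = _ at hxa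
    have hxT : MulAut.conj ((x : normalizer (T : Set G)) : G) • T = T := by
      ext y
      have h1 := mem_normalizer_iff.1 (x : normalizer (T : Set G)).2
      rw [mem_smul_pointwise_iff_exists]
      constructor
      · rintro ⟨z, hz, rfl⟩
        exact (h1 z).1 hz
      · intro hy
        refine ⟨((x : normalizer (T : Set G)) : G)⁻¹ * y * ((x : normalizer (T : Set G)) : G), ?_, by simp [mul_assoc]⟩
        have h2 := h1 (((x : normalizer (T : Set G)) : G)⁻¹ * y * ((x : normalizer (T : Set G)) : G))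
        refine h2.2 ?_
        convert hy using 1
        group
    rw [smul_inf, hxa, hxT]
    -- `a = t * c`
    have h1 : MulAut.conj a • (B ⊓ T) = MulAut.conj t • (B ⊓ T) := by
      have h2 : a = t * (t⁻¹ * a) := by group
      rw [h2, map_mul, mul_smul]
      congr 1
      ext y
      rw [mem_smul_pointwise_iff_exists]
      constructor
      · rintro ⟨z, hz, rfl⟩
        have h3 : MulAut.conj (t⁻¹ * a) • z = z := by
          rw [MulAut.smul_def, MulAut.conj_apply, (hc z hz.2).eq, mul_inv_cancel_right]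
        rw [h3]; exact hz
      · intro hy
        refine ⟨y, hy, ?_⟩
        rw [MulAut.smul_def, MulAut.conj_apply, (hc y hy.2).eq, mul_inv_cancel_right]
    rw [← h1, smul_inf]
    congr 1
    -- `a` normalises `T`
    ext y
    rw [mem_smul_pointwise_iff_exists]
    constructor
    · intro hy
      refine ⟨a⁻¹ * y * a, ?_, by simp [mul_assoc]⟩
      have : a⁻¹ * y * a⁻¹⁻¹ ∈ T := hTn.conj_mem ⟨y, hTN hy⟩ hy ⟨a⁻¹, N.inv_mem ha⟩
      rwa [inv_inv] at this
    · rintro ⟨z, hz, rfl⟩
      exact hTn.conj_mem ⟨z, hTN hz⟩ hz ⟨a, ha⟩)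
  obtain ⟨H, hH, hfix⟩ := hrowT
  refine ⟨H.map T.subtype, map_subtype_le _, ?_, ?_, ?_⟩
  · rw [card_map_of_injective T.subtype_injective]; exact hH.1
  · have h1 : (H.map T.subtype).relIndex T = H.index := by
      rw [relIndex, subgroupOf, comap_map_eq_self_of_injective T.subtype_injective]
    rw [h1]; exact hH.2
  · intro x hx hxT
    have hxn : x ∈ normalizer (T : Set G) := by
      rw [mem_normalizer_iff]
      intro y
      constructor
      · intro hy
        have : (MulAut.conj x) y ∈ MulAut.conj x • T := ⟨y, hy, rfl⟩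
        rw [hxT] at this
        exact this
      · intro hy
        have h8 : x * y * x⁻¹ ∈ MulAut.conj x • T := by rw [hxT]; exact hy
        obtain ⟨s, hs, h9⟩ := h8
        have h10 : (MulAut.conj x) s = (MulAut.conj x) y := h9
        rw [← (MulAut.conj x).injective h10]
        exact hs
    obtain ⟨t, ht⟩ := fixC_iff.1 (hfix (f ⟨⟨x, hxn⟩, hx⟩) ⟨_, rfl⟩)
    refine ⟨t, t.2, ?_⟩
    have h1 : (f ⟨⟨x, hxn⟩, hx⟩ • H).map T.subtype = (MulAut.conj t • H).map T.subtype := by rw [ht]
    rw [hfs, Cfsg.Agent.Solvable.SZ.map_conj_smul] at h1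
    exact h1

/-- **The nonabelian minimal normal subgroup.** -/
theorem hall_nonabelian (hrow : ∀ (S : Type u) [Group S] [Finite S] [IsSimpleGroup S], ¬ IsMulCommutative S →
      IsEPiGroup π S → SRow π S)
    (N L : Subgroup G) [N.Normal] (hmin : ∀ M : Subgroup G, M.Normal → M ≤ N → M = ⊥ ∨ M = N)
    (hna : ¬ ∀ x ∈ N, ∀ y ∈ N, Commute x y) (hNL : N ≤ L)
    (hL : PiN π (N.relIndex L)) (hLi : PiN' π L.index) (hE : IsEPiGroup π G) :
    ∃ H : Subgroup G, IsPiHall π H ∧ H ≤ L := by
  classical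
  obtain ⟨s1, s2, s3, s4, s5, s6⟩ := nonabelian_structure N hmin hna
  have hfin : Finite (minSet N) := Set.toFinite _
  let _ : Fintype (minSet N) := Fintype.ofFinite _
  -- the Hall subgroups of the factors
  have hgood := fun T : minSet N => exists_good_hall hrow N L s2 s3 hL hE T.2 (s4 T T.2) (s5 T T.2)
  choose H₁ h1T h1pi h1pi' h1fix using hgood
  -- `L`-orbits
  let rel : Setoid (minSet N) :=
    { r := fun S T => ∃ g ∈ L, MulAut.conj g • S.1 = T.1
      iseqv :=
        ⟨fun S => ⟨1, L.one_mem, by rw [map_one, one_smul]⟩,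
         fun {S T} ⟨g, hg, h⟩ => ⟨g⁻¹, L.inv_mem hg, by rw [map_inv, inv_smul_eq_iff, h]⟩,
         fun {S T U} ⟨g, hg, h⟩ ⟨g', hg', h'⟩ => ⟨g' * g, L.mul_mem hg' hg, by rw [map_mul, mul_smul, h, h']⟩⟩ }
  let ρ : minSet N → minSet N := fun T => (Quotient.mk rel T).out
  have hρ : ∀ T, ∃ g ∈ L, MulAut.conj g • (ρ T).1 = T.1 := fun T => Quotient.exact (Quotient.out_eq (Quotient.mk rel T))
  have hρeq : ∀ S T : minSet N, (∃ g ∈ L, MulAut.conj g • S.1 = T.1) → ρ S = ρ T := by
    intro S T h
    have : Quotient.mk rel S = Quotient.mk rel T := Quotient.sound h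
    show (Quotient.mk rel S).out = (Quotient.mk rel T).out
    rw [this]
  choose g hgL hg using hρ
  have hcomm : ∀ S T : minSet N, S ≠ T → ∀ x ∈ S.1, ∀ y ∈ T.1, Commute x y := by
    intro S T hST x hx y hy
    exact commute_of_mem s2 (fun U hU => hU.2.2.1) (fun U hU => hU.1) S.2 T.2
      (fun h => hST (Subtype.ext h)) hx hy
  have hind : iSupIndep (fun T : minSet N => T.1) := (sSupIndep_iff _).mp s2
  have hsup : ⨆ T : minSet N, T.1 = N := (sSup_eq_iSup' _).symm.trans s3
  let B : minSet N → Subgroup G := fun T => MulAut.conj (g T) • H₁ (ρ T)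
  have hBT : ∀ T, B T ≤ T.1 := fun T => by rw [← hg T]; exact smul_mono_right _ (h1T (ρ T))
  have hcB : Pairwise fun i j => ∀ x y : G, x ∈ B i → y ∈ B j → Commute x y := fun i j hij x y hx hy =>
    hcomm i j hij x (hBT i hx) y (hBT j hy)
  have hcT : Pairwise fun i j : minSet N => ∀ x y : G, x ∈ i.1 → y ∈ j.1 → Commute x y := fun i j hij x y hx hy =>
    hcomm i j hij x hx y hy
  have hcardB : Nat.card ↥(⨆ T, B T) = ∏ T : minSet N, Nat.card (B T) := card_iSup hcB (hind.mono hBT)
  have hcardN : Nat.card N = ∏ T : minSet N, Nat.card T.1 := by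
    have e0 : Nat.card N = Nat.card ↥(⨆ T : minSet N, T.1) := by rw [hsup]
    rw [e0, card_iSup hcT hind]
  have hBN : (⨆ T, B T) ≤ N := (iSup_mono hBT).trans hsup.le
  have cB : ∀ T, Nat.card (B T) = Nat.card (H₁ (ρ T)) := fun T => Cfsg.Agent.Solvable.SZ.card_conj_smul _ _
  have cT : ∀ T : minSet N, Nat.card T.1 = Nat.card (ρ T).1 := fun T => by
    conv_lhs => rw [← hg T]
    exact Cfsg.Agent.Solvable.SZ.card_conj_smul _ _
  have cBT : ∀ T : minSet N, Nat.card (B T) * (H₁ (ρ T)).relIndex (ρ T).1 = Nat.card T.1 := by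
    intro T
    rw [cB, cT]
    have := relIndex_mul_relIndex ⊥ (H₁ (ρ T)) (ρ T).1 bot_le (h1T (ρ T))
    rw [relIndex_bot_left, relIndex_bot_left] at this
    exact this
  -- the class of `B`
  have hconj : ∀ x ∈ L, ∃ v ∈ N, MulAut.conj x • (⨆ T, B T) = MulAut.conj v • (⨆ T, B T) := by
    intro x hx
    have hact : ∀ T : minSet N, ∃ T' : minSet N, MulAut.conj x • T.1 = T'.1 := by
      intro T
      exact ⟨⟨_, map_conj_mem_minSet T.2 x⟩, (conj_eq x T.1).symm⟩
    choose τ hτ using hact
    have hτinj : Function.Injective τ := by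
      intro S T h
      apply Subtype.ext
      have : MulAut.conj x • S.1 = MulAut.conj x • T.1 := by rw [hτ, hτ, h]
      exact smul_left_cancel _ this
    have hτsurj : Function.Surjective τ := Finite.surjective_of_injective hτinj
    have hs : ∀ T : minSet N, ∃ s ∈ (τ T).1, MulAut.conj x • B T = MulAut.conj s • B (τ T) := by
      intro T
      have hρτ : ρ (τ T) = ρ T := (hρeq T (τ T) ⟨x, hx, hτ T⟩).symm
      set h := (g (τ T))⁻¹ * x * g T with hh
      have hhL : h ∈ L := L.mul_mem (L.mul_mem (L.inv_mem (hgL _)) hx) (hgL T)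
      have hT₀h : MulAut.conj h • (ρ T).1 = (ρ T).1 := by
        have h2 := hg (τ T)
        rw [hρτ] at h2
        rw [hh, map_mul, map_mul, mul_smul, mul_smul, hg T, hτ T, map_inv, inv_smul_eq_iff, h2]
      obtain ⟨s, hs, hs'⟩ := h1fix (ρ T) h hhL hT₀h
      refine ⟨g (τ T) * s * (g (τ T))⁻¹, ?_, ?_⟩
      · have h2 := hg (τ T)
        rw [hρτ] at h2
        rw [← h2]
        exact ⟨s, hs, rfl⟩
      · show MulAut.conj x • (MulAut.conj (g T) • H₁ (ρ T)) = MulAut.conj _ • (MulAut.conj (g (τ T)) • H₁ (ρ (τ T)))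
        rw [hρτ, ← mul_smul, ← map_mul, ← mul_smul, ← map_mul]
        have h4 : x * g T = g (τ T) * h := by rw [hh]; group
        have h5 : g (τ T) * s * (g (τ T))⁻¹ * g (τ T) = g (τ T) * s := by group
        rw [h4, h5, map_mul _ (g (τ T)) h, map_mul _ (g (τ T)) (s : G), mul_smul, mul_smul, hs']
    choose s hsT hsB using hs
    let σ := (Equiv.ofBijective τ ⟨hτinj, hτsurj⟩)
    obtain ⟨v, hvN, hv, -⟩ := exists_prod (fun T : minSet N => T.1) N (fun T => T.2.1) hcomm
      (fun T => s (σ.symm T)) (fun T => by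
        have := hsT (σ.symm T)
        rwa [show τ (σ.symm T) = T from σ.apply_symm_apply T] at this) Finset.univ
    refine ⟨v, hvN, ?_⟩
    have key : ∀ T : minSet N, MulAut.conj x • B T = MulAut.conj v • B (τ T) := by
      intro T
      rw [hsB T]
      have h1 := hv (τ T) (Finset.mem_univ _)
      rw [show σ.symm (τ T) = T from σ.symm_apply_apply T] at h1
      have h2 : v = s T * ((s T)⁻¹ * v) := by group
      conv_rhs => rw [h2]
      rw [map_mul, mul_smul]
      congr 1
      symm
      ext y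
      simp only [mem_smul_pointwise_iff_exists]
      constructor
      · rintro ⟨a, ha, rfl⟩
        have : Commute ((s T)⁻¹ * v) a := h1 a (hBT _ ha)
        have h3 : MulAut.conj ((s T)⁻¹ * v) • a = a := by
          rw [MulAut.smul_def, MulAut.conj_apply, this.eq, mul_inv_cancel_right]
        rw [h3]; exact ha
      · intro hy
        have : Commute ((s T)⁻¹ * v) y := h1 y (hBT _ hy)
        refine ⟨y, hy, ?_⟩
        rw [MulAut.smul_def, MulAut.conj_apply, this.eq, mul_inv_cancel_right]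
    have e1 : MulAut.conj x • (⨆ T, B T) = ⨆ T, MulAut.conj x • B T := by
      rw [← conj_eq, Subgroup.map_iSup]
      exact iSup_congr fun T => conj_eq _ _
    have e2 : MulAut.conj v • (⨆ T, B T) = ⨆ T, MulAut.conj v • B T := by
      rw [← conj_eq, Subgroup.map_iSup]
      exact iSup_congr fun T => conj_eq _ _
    rw [e1, e2, iSup_congr key]
    exact hτsurj.iSup_comp (fun T => MulAut.conj v • B T)
  refine hall_of_inv N L (⨆ T, B T) hNL hBN ?_ ?_ hL hLi hconj
  · rw [hcardB]
    exact piN_prod _ _ fun T _ => by rw [cB]; exact h1pi (ρ T)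
  · have h1 : (⨆ T, B T).relIndex N * Nat.card ↥(⨆ T, B T) = Nat.card N := by
      have := relIndex_mul_relIndex ⊥ (⨆ T, B T) N bot_le hBN
      rw [relIndex_bot_left, relIndex_bot_left] at this
      rw [mul_comm]; exact this
    have h2 : (⨆ T, B T).relIndex N = ∏ T : minSet N, (H₁ (ρ T)).relIndex (ρ T).1 := by
      apply Nat.eq_of_mul_eq_mul_right (Nat.card_pos (α := ↥(⨆ T, B T)))
      rw [h1, hcardN, hcardB, ← Finset.prod_mul_distrib]
      exact Finset.prod_congr rfl fun T _ => by rw [← cBT, mul_comm]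
    rw [h2]
    exact piN'_prod _ _ fun T _ => h1pi' (ρ T)

/-- **A minimal normal subgroup.** -/
theorem hall_minimal (hrow : ∀ (S : Type u) [Group S] [Finite S] [IsSimpleGroup S], ¬ IsMulCommutative S →
      IsEPiGroup π S → SRow π S)
    (N L : Subgroup G) [N.Normal] (hN : N ≠ ⊥) (hmin : ∀ M : Subgroup G, M.Normal → M ≤ N → M = ⊥ ∨ M = N)
    (hNL : N ≤ L) (hL : PiN π (N.relIndex L)) (hLi : PiN' π L.index) (hE : IsEPiGroup π G) :
    ∃ H : Subgroup G, IsPiHall π H ∧ H ≤ L := by
  by_cases hna : ∀ x ∈ N, ∀ y ∈ N, Commute x y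
  · obtain ⟨r, hr, hrN, -⟩ := abelian_structure N hN hmin hna
    have : Fact r.Prime := ⟨hr⟩
    obtain ⟨k, hk⟩ := hrN.exists_card_eq
    by_cases hrπ : r ∈ π
    · refine ⟨L, ⟨?_, hLi⟩, le_rfl⟩
      have h1 : PiN π (Nat.card L) := by
        have h2 := relIndex_mul_relIndex ⊥ N L bot_le hNL
        rw [relIndex_bot_left, relIndex_bot_left] at h2
        rw [← h2]
        refine PiN.mul ?_ hL
        intro p hp hd
        rw [hk] at hd
        rwa [(Nat.prime_dvd_prime_iff_eq hp hr).1 (hp.dvd_of_dvd_pow hd)]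
      exact h1
    · refine hall_of_inv N L ⊥ hNL bot_le ?_ ?_ hL hLi ?_
      · intro p hp hd
        rw [card_bot] at hd
        exact absurd (Nat.dvd_one.1 hd) hp.one_lt.ne'
      · intro p hp hpπ hd
        rw [relIndex_bot_left, hk] at hd
        rw [(Nat.prime_dvd_prime_iff_eq hp hr).1 (hp.dvd_of_dvd_pow hd)] at hpπ
        exact hrπ hpπ
      · intro x _
        refine ⟨1, N.one_mem, ?_⟩
        rw [← conj_eq', ← conj_eq', Subgroup.map_bot, Subgroup.map_bot]
  · exact hall_nonabelian hrow N L hmin hna hNL hL hLi hE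

/-- the induction -/
theorem lift_ind (hrow : ∀ (S : Type u) [Group S] [Finite S] [IsSimpleGroup S], ¬ IsMulCommutative S →
      IsEPiGroup π S → SRow π S) (n : ℕ) :
    ∀ (G : Type u) [Group G] [Finite G], Nat.card G = n → IsEPiGroup π G → ∀ (Q : Type u) [Group Q] [Finite Q]
      (f : G →* Q), Function.Surjective f → ∀ K : Subgroup Q, IsPiHall π K →
      ∃ H : Subgroup G, IsPiHall π H ∧ H.map f = K := by
  induction n using Nat.strong_induction_on with
  | _ n ih =>
    intro G _ _ hn hE Q _ _ f hf K hK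
    by_cases hker : f.ker = ⊥
    · have hinj : Function.Injective f := (f.ker_eq_bot_iff).1 hker
      refine ⟨K.comap f, ⟨?_, ?_⟩, map_comap_eq_self_of_surjective hf K⟩
      · have h1 : Nat.card (K.comap f) = Nat.card K := by
          rw [← card_map_of_injective hinj, map_comap_eq_self_of_surjective hf K]
        have h2 : PiN π (Nat.card (K.comap f)) := by rw [h1]; exact hK.1
        exact h2
      · have h2 : PiN' π (K.comap f).index := by rw [index_comap_of_surjective _ hf]; exact hK.2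
        exact h2
    · obtain ⟨N, hNn, hN1, hNA, hmin⟩ : ∃ N : Subgroup G, N.Normal ∧ N ≠ ⊥ ∧ N ≤ f.ker ∧
          ∀ M : Subgroup G, M.Normal → M ≤ N → M = ⊥ ∨ M = N := by
        have hfin : {T : Subgroup G | T.Normal ∧ T ≠ ⊥ ∧ T ≤ f.ker}.Finite := Set.toFinite _
        obtain ⟨T, ⟨hTn, hT0, hTA⟩, hTmin⟩ := hfin.exists_minimal ⟨f.ker, inferInstance, hker, le_rfl⟩
        refine ⟨T, hTn, hT0, hTA, fun M hM hMT => ?_⟩
        by_cases hS0 : M = ⊥
        · exact Or.inl hS0
        · exact Or.inr (le_antisymm hMT (hTmin ⟨hM, hS0, hMT.trans hTA⟩ hMT))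
      -- the quotient `G ⧸ N`
      have hlt : Nat.card (G ⧸ N) < n := by
        rw [← hn]
        have h1 := card_mul_index N
        have h2 : N.index = Nat.card (G ⧸ N) := rfl
        rw [h2] at h1
        have h3 : Nat.card N ≠ 1 := fun h => hN1 (card_eq_one.1 h)
        have h4 : 0 < Nat.card N := Nat.card_pos
        have h5 : 0 < Nat.card (G ⧸ N) := Nat.card_pos
        rw [← h1]
        exact lt_mul_of_one_lt_left h5 (by omega)
      have hEQ : IsEPiGroup π (G ⧸ N) := by
        obtain ⟨H, hH⟩ := hE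
        exact ⟨_, isPiHall_map_mk hH N⟩
      obtain ⟨M, hM, hMK⟩ := ih _ hlt (G ⧸ N) rfl hEQ Q (QuotientGroup.lift N f hNA)
        (fun q => by
          obtain ⟨x, rfl⟩ := hf q
          exact ⟨QuotientGroup.mk' N x, rfl⟩) K hK
      set L := M.comap (QuotientGroup.mk' N) with hLdef
      have hNL : N ≤ L := by
        intro a ha
        have : (QuotientGroup.mk' N) a = 1 := (QuotientGroup.eq_one_iff a).mpr ha
        show (QuotientGroup.mk' N) a ∈ M
        rw [this]
        exact one_mem M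
      have hLi : L.index = M.index := index_comap_of_surjective _ (QuotientGroup.mk'_surjective N)
      have hL : PiN π (N.relIndex L) := by
        have h1 := relIndex_mul_index hNL
        have h2 : N.index = Nat.card (G ⧸ N) := rfl
        rw [hLi, h2, ← card_mul_index M] at h1
        rw [Nat.eq_of_mul_eq_mul_right (Nat.pos_of_ne_zero index_ne_zero_of_finite) h1]
        exact hM.1
      obtain ⟨H, hH, hHL⟩ := hall_minimal hrow N L hN1 hmin hNL hL (by rw [hLi]; exact hM.2) hE
      refine ⟨H, hH, ?_⟩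
      have h6 : H.map (QuotientGroup.mk' N) = M := by
        have h7 : H.map (QuotientGroup.mk' N) ≤ M := by
          rintro _ ⟨x, hx, rfl⟩
          exact hHL hx
        have h8 := isPiHall_map_mk hH N
        refine eq_of_le_of_card_ge h7 (le_of_eq ?_)
        exact mul_unique hM.1 hM.2 h8.1 h8.2 (by rw [card_mul_index, card_mul_index])
      rw [← hMK, ← h6, map_map]
      congr 1

/-- **S4311 from the rows.** -/
theorem lift_of_rows (hrow : ∀ (S : Type u) [Group S] [Finite S] [IsSimpleGroup S], ¬ IsMulCommutative S →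
      IsEPiGroup π S → SRow π S) (A : Subgroup G) [A.Normal]
    (hG : IsEPiGroup π G) (K : Subgroup (G ⧸ A)) (hK : IsPiHall π K) :
    ∃ H : Subgroup G, IsPiHall π H ∧ H.map (QuotientGroup.mk' A) = K :=
  lift_ind hrow _ G rfl hG (G ⧸ A) (QuotientGroup.mk' A) (QuotientGroup.mk'_surjective A) K hK

/-- if both `A` and the quotients are known to extend (S4312) then S4311 holds -/
theorem lift_of_ext (hext : ∀ (M : Type u) [Group M] [Finite M] (B : Subgroup M) [B.Normal],
      IsEPiGroup π B → IsEPiGroup π (M ⧸ B) → IsEPiGroup π M) (A : Subgroup G) [A.Normal]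
    (hG : IsEPiGroup π G) (K : Subgroup (G ⧸ A)) (hK : IsPiHall π K) :
    ∃ H : Subgroup G, IsPiHall π H ∧ H.map (QuotientGroup.mk' A) = K := by
  set L := K.comap (QuotientGroup.mk' A) with hLdef
  have hAL : A ≤ L := by
    intro a ha
    have : (QuotientGroup.mk' A) a = 1 := (QuotientGroup.eq_one_iff a).mpr ha
    show (QuotientGroup.mk' A) a ∈ K
    rw [this]
    exact one_mem K
  have hLi : L.index = K.index := index_comap_of_surjective _ (QuotientGroup.mk'_surjective A)
  have hL : PiN π (A.relIndex L) := by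
    have h1 := relIndex_mul_index hAL
    have h2 : A.index = Nat.card (G ⧸ A) := rfl
    rw [hLi, h2, ← card_mul_index K] at h1
    rw [Nat.eq_of_mul_eq_mul_right (Nat.pos_of_ne_zero index_ne_zero_of_finite) h1]
    exact hK.1
  obtain ⟨H₀, hH₀⟩ := hG
  have hEL : IsEPiGroup π L := by
    refine hext L (A.subgroupOf L) ?_ (epi_top hL)
    exact Cfsg.Agent.H553.ExtRed.epi_subgroupOf hAL ⟨_, isPiHall_subgroupOf hH₀ A⟩
  obtain ⟨H', hH'⟩ := hEL
  have hH : IsPiHall π (H'.map L.subtype) := by
    refine ⟨?_, ?_⟩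
    · have : PiN π (Nat.card (H'.map L.subtype)) := by
        rw [card_map_of_injective L.subtype_injective]; exact hH'.1
      exact this
    · have : PiN' π (H'.map L.subtype).index := by
        rw [index_map_subtype]; exact PiN'.mul hH'.2 (by rw [hLi]; exact hK.2)
      exact this
  refine ⟨H'.map L.subtype, hH, ?_⟩
  have h7 : (H'.map L.subtype).map (QuotientGroup.mk' A) ≤ K := by
    rintro _ ⟨_, ⟨x, -, rfl⟩, rfl⟩
    exact x.2
  have h8 := isPiHall_map_mk hH A
  refine eq_of_le_of_card_ge h7 (le_of_eq ?_)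
  exact mul_unique hK.1 hK.2 h8.1 h8.2 (by rw [card_mul_index, card_mul_index])

end Cfsg.Agent.H561.RV
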